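import Cfsg.Agent.SpFourCover.Small
import Cfsg.Agent.CosetEnum.Suz.G2.Field

/-!
The certificates over the field with 4 elements (found by search, checked by the kernel).
-/

set_option autoImplicit false
set_option maxHeartbeats 2000000
set_option maxRecDepth 200000

namespace CfsgLib.SpFourCover.Four

open CosetEnum.Suz.G2

/-- Abbreviation of a field element. -/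
abbrev Z : F4 := .zero

/-- Abbreviation of a field element. -/
abbrev O : F4 := .one

/-- Abbreviation of a field element. -/
abbrev W : F4 := .om

/-- Abbreviation of a field element. -/
abbrev W2 : F4 := .om'

/-- The element whose class is squared. -/
def x : M4 (F4) := ⟨O, W, W2, W, O, W2, O, W, W, Z, W2, W, O, Z, W, W2⟩

/-- Left factors. -/
def Y0 : List (M4 (F4) × M4 (F4)) := [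
  (⟨W, W2, Z, O, O, Z, W, O, W2, O, Z, Z, O, Z, W2, W⟩, ⟨O, W, W, O, W, O, W2, W2, O, O, O, W, W2, Z, Z, W2⟩),
  (⟨O, Z, O, Z, O, O, O, W2, O, O, Z, W, Z, O, Z, W⟩, ⟨W2, W2, W2, W, W, W, O, W, W, W2, W2, O, Z, W, O, Z⟩),
  (⟨Z, Z, W, W, W, W, W, W, O, W, W2, Z, W2, W2, O, W⟩, ⟨W, O, W, W, O, Z, O, Z, W, O, W, W2, Z, Z, O, W⟩),
  (⟨W, W2, Z, W2, Z, Z, O, W2, W2, O, W2, O, Z, W, O, O⟩, ⟨W, W2, W, O, W, O, W2, O, Z, W, W2, W2, W, W2, W2, W⟩),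
  (⟨O, Z, W2, W, W, Z, O, Z, W, W2, O, Z, Z, W, W2, W⟩, ⟨Z, O, Z, O, Z, W2, W2, W2, O, Z, O, O, W, Z, W, Z⟩),
  (⟨O, Z, O, W2, W2, W2, O, Z, W, W2, O, W, W, W2, Z, O⟩, ⟨Z, O, Z, W, O, O, W, W, W2, O, Z, W2, O, W, W2, W2⟩),
  (⟨W, Z, W2, O, W2, W, Z, W2, W2, W2, Z, O, O, O, O, W2⟩, ⟨W2, Z, Z, W2, W2, W2, W2, W2, W2, W2, O, O, O, W, W, W2⟩),
  (⟨W, O, O, Z, W, O, W, O, W2, W2, Z, W, W, Z, W2, W2⟩, ⟨Z, W, W2, Z, O, W, O, W, W2, Z, Z, W, Z, O, W2, Z⟩),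
  (⟨O, Z, W, Z, W, W, W2, O, O, O, W2, W, W, O, W2, Z⟩, ⟨O, W2, O, W, W, W2, W2, Z, W2, W2, W, W, W2, W, O, W⟩),
  (⟨Z, Z, W, W, W2, W2, Z, W2, Z, W2, W2, Z, Z, Z, W, Z⟩, ⟨W, W, W, Z, W2, O, Z, W2, O, W2, Z, W, Z, O, O, O⟩),
  (⟨O, Z, W, W2, W, W, W, O, Z, O, W, O, W2, Z, O, O⟩, ⟨W2, O, Z, Z, O, Z, W, O, Z, O, O, W, O, W2, Z, Z⟩),
  (⟨Z, Z, W, W2, W, O, Z, W, Z, W, W, Z, W, O, W2, W⟩, ⟨W, O, Z, O, W, W, W, O, W, Z, O, W2, W, W2, Z, W2⟩),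
  (⟨Z, O, W, W2, Z, W2, Z, W, W2, O, W2, W2, O, Z, W, W⟩, ⟨O, W, W2, W2, W, O, W2, W2, O, W2, O, W2, W, W, O, W2⟩),
  (⟨O, O, O, W2, W, W, W2, Z, Z, W, W2, W2, O, Z, W2, W⟩, ⟨Z, O, W, W2, Z, O, Z, W2, W2, W2, W, W, W2, Z, W2, O⟩),
  (⟨W2, W, O, Z, Z, W, O, W, O, W, W2, O, W, W2, Z, O⟩, ⟨O, O, O, W2, W, W, W2, Z, O, W2, O, W2, W2, W, W, Z⟩),
  (⟨Z, W2, Z, Z, O, O, W2, Z, W, W2, W2, W, W, W2, Z, Z⟩, ⟨W2, W, W2, Z, W, W2, W2, W, W2, Z, O, Z, W2, W, O, W2⟩),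
  (⟨Z, Z, O, O, W2, W2, W, W2, O, Z, W, O, W2, W2, W, O⟩, ⟨Z, O, W2, O, W, W2, W2, W, W2, W, O, O, W, O, O, Z⟩),
  (⟨W, O, Z, O, W, W2, O, O, W, O, O, W, W2, O, Z, O⟩, ⟨W2, W2, O, Z, W, Z, W2, Z, O, W, W, W, W, O, Z, W2⟩),
  (⟨Z, W2, W, W, W2, W2, O, Z, W2, W, Z, O, W2, Z, O, W⟩, ⟨Z, W, W, W2, O, W, W2, W, W2, O, W2, W, W2, Z, W, W2⟩),
  (⟨W2, W2, O, Z, Z, O, Z, Z, O, Z, Z, Z, W2, O, Z, O⟩, ⟨W, Z, W, W, O, W, W2, W, W2, W, W, W, O, O, Z, Z⟩),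
  (⟨W, W, O, W, Z, W, O, W2, W2, O, Z, Z, W, W2, O, W2⟩, ⟨O, W, W2, Z, W2, W, Z, O, O, Z, O, W, W, W, O, Z⟩),
  (⟨W, W, W2, W, Z, W, O, W2, W2, Z, Z, W, W2, Z, Z, O⟩, ⟨W, W2, W, W, W, O, O, O, O, W, W2, W, W, O, Z, W⟩),
  (⟨W, W, Z, W2, Z, W, W2, Z, W2, W2, W2, O, Z, W2, W, W2⟩, ⟨Z, O, O, O, W, W2, Z, O, O, W2, W2, W2, W, Z, Z, W⟩),
  (⟨W, Z, O, W, W, Z, O, O, Z, W, O, O, W2, W, Z, W2⟩, ⟨O, O, O, W2, O, O, Z, W, W2, W, W, O, W, W2, Z, Z⟩),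
  (⟨W2, Z, Z, W2, W, O, O, Z, W, W2, O, Z, W, Z, Z, W2⟩, ⟨W2, W, O, W, W, O, W, W2, O, O, Z, O, W, W, W, Z⟩),
  (⟨Z, O, Z, W, O, W, Z, W2, Z, W2, W, Z, O, W, O, W2⟩, ⟨W2, W, W, O, W, W2, W, W2, O, Z, O, Z, Z, O, Z, W2⟩),
  (⟨Z, Z, O, W, Z, Z, W2, W, W2, O, W, W, W2, W, W, W2⟩, ⟨W2, O, Z, Z, W, W, W2, W, Z, O, Z, O, O, W2, O, W2⟩),
  (⟨Z, W, W, Z, W2, Z, W, W2, W, W, W2, O, W, O, W, W⟩, ⟨W2, O, W, W2, Z, Z, O, W2, Z, Z, W2, W2, W2, W2, W, W⟩),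
  (⟨O, W2, W, Z, W2, W2, O, Z, O, W, O, W2, Z, W, W2, O⟩, ⟨Z, W2, W2, W, O, O, Z, W, O, Z, W2, W2, O, W, W, Z⟩),
  (⟨W2, Z, W, Z, O, O, W2, O, W2, Z, Z, W, W, W, O, W2⟩, ⟨Z, O, W, Z, W2, W2, O, O, O, Z, O, W2, Z, W, O, Z⟩)]

/-- Left factors. -/
def Y1 : List (M4 (F4) × M4 (F4)) := [
  (⟨O, O, Z, Z, Z, W2, W2, W2, W, W, O, Z, Z, O, W2, W2⟩, ⟨W2, W2, W, W2, W, Z, W, W2, O, W, W, O, W, O, W2, W2⟩),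
  (⟨W2, W2, Z, Z, W2, Z, W2, W2, Z, W2, W2, O, W2, W2, W, W⟩, ⟨W2, W, W2, O, W2, W, W, W2, W, W, Z, O, O, Z, W2, W2⟩),
  (⟨O, W2, W2, Z, W, W, W, O, W2, O, W, W, Z, W, W2, O⟩, ⟨W, O, O, O, Z, W2, O, O, Z, W, Z, W2, O, W, Z, W2⟩),
  (⟨W2, O, O, W2, W2, W2, O, W, O, O, O, Z, W, O, W, Z⟩, ⟨O, Z, W, O, W, O, W, Z, O, W2, Z, W, W2, Z, O, W⟩),
  (⟨O, O, W, Z, O, Z, W2, O, W2, Z, W, W, W, W2, W2, Z⟩, ⟨O, O, O, Z, W2, W, O, W, O, W2, Z, Z, W, W, W2, O⟩),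
  (⟨Z, W2, O, O, W, O, Z, O, W, O, O, W2, W, W, W, Z⟩, ⟨W, W2, W, O, W2, W2, W2, O, Z, W, O, W, W, W2, W2, W⟩),
  (⟨O, O, O, Z, W, W, Z, W, O, Z, O, O, Z, W2, W2, W2⟩, ⟨W, W2, O, W2, Z, W2, W2, O, W, W, W2, O, W2, W2, W2, Z⟩),
  (⟨W, Z, Z, Z, O, Z, Z, W2, Z, O, W2, W, O, W, Z, Z⟩, ⟨W2, Z, W, W2, W, W, W2, W2, W, W2, Z, W, W, W2, W, W2⟩),
  (⟨O, Z, Z, O, W, W2, W2, W, Z, O, Z, W2, W2, W, W, O⟩, ⟨Z, W2, W2, W, O, W2, W, W2, W, Z, W2, Z, W, Z, W2, W⟩),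
  (⟨W, Z, W2, W2, W2, Z, O, W, Z, W2, W, W, W, W, Z, Z⟩, ⟨O, W2, O, Z, W, Z, W, Z, W, W2, W, W, W2, O, Z, O⟩),
  (⟨W, W, O, Z, O, W, O, W, Z, W2, Z, W2, Z, O, O, O⟩, ⟨Z, W, O, W, W2, W, W, Z, W2, O, W, Z, Z, W, W2, W⟩),
  (⟨W, O, O, W, W, Z, O, Z, W, Z, O, O, Z, O, W2, W2⟩, ⟨W2, Z, O, W2, Z, W2, W2, W2, W, W2, W, O, W2, O, Z, Z⟩),
  (⟨Z, O, W, O, W, W, O, O, O, O, W, W, Z, W2, W, W2⟩, ⟨Z, W, Z, Z, O, W2, W, Z, W, Z, O, W2, O, Z, W2, Z⟩),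
  (⟨W2, O, W2, W, W2, Z, O, O, W, O, O, O, W, W, W, W2⟩, ⟨W2, O, W, W, Z, W, Z, W2, W, W, W2, W2, W, W, Z, Z⟩),
  (⟨Z, W, O, W, W2, W2, W, O, Z, W, W, O, W, W, W2, W2⟩, ⟨W, O, Z, W2, Z, Z, W2, O, Z, Z, W2, Z, Z, O, Z, W2⟩),
  (⟨O, Z, O, W2, Z, W2, W, W, Z, Z, O, Z, Z, Z, Z, W⟩, ⟨Z, W2, Z, W, W, W2, W, W, W, Z, O, W, W, Z, O, Z⟩),
  (⟨W, W2, W, Z, W2, W2, Z, W, Z, W2, Z, W, W2, O, W, W2⟩, ⟨O, W2, O, W2, W, O, W2, W2, W2, W2, W, W2, W, W, W2, Z⟩),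
  (⟨W, W2, O, O, Z, W2, Z, O, W, O, W, W, O, W2, Z, W2⟩, ⟨W2, W, Z, W2, Z, O, W2, W2, W2, Z, W2, W, O, W, Z, W2⟩),
  (⟨W, W, W2, Z, W, W2, O, W, W, W2, W2, W2, W, W, W, O⟩, ⟨W2, Z, W2, W2, Z, W, W, W2, Z, Z, W, Z, Z, O, O, O⟩),
  (⟨W2, W, Z, O, O, W2, W2, W2, Z, W, W2, W2, Z, O, W2, W⟩, ⟨W, O, W2, O, Z, Z, W, W2, W2, W, W, W, Z, W, Z, W⟩),
  (⟨O, O, W2, Z, O, W, W, O, W, Z, O, O, O, Z, W2, Z⟩, ⟨Z, W2, W, O, O, O, Z, O, W, W2, O, W, Z, O, W, W⟩),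
  (⟨W2, W2, Z, O, W2, O, W2, O, Z, W, W, W2, O, Z, O, O⟩, ⟨O, O, W2, O, Z, W2, W2, Z, W2, O, O, W2, W2, W, O, O⟩),
  (⟨W, W, Z, O, O, Z, W2, W2, O, W, W, Z, O, O, O, W⟩, ⟨W, Z, O, W2, W2, O, Z, W2, W2, W2, Z, W, W2, W2, W2, O⟩),
  (⟨W2, Z, Z, W2, O, W2, W2, Z, W, Z, W, O, Z, Z, Z, W⟩, ⟨Z, W, O, O, W, Z, O, O, Z, O, W2, Z, W, Z, W, O⟩),
  (⟨O, O, W, Z, O, W2, O, W2, W, W, O, W2, W, O, O, W⟩, ⟨Z, W2, O, O, O, W2, Z, W2, W, Z, W2, O, Z, O, W2, W⟩),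
  (⟨Z, W, O, O, Z, W, Z, O, O, Z, O, Z, O, W, O, W⟩, ⟨W, W2, W2, W, W2, O, W, O, W2, Z, O, W, W, Z, W2, Z⟩),
  (⟨W2, Z, W2, W, Z, Z, Z, O, O, Z, W2, W, W2, O, Z, W2⟩, ⟨O, Z, Z, O, O, W, W, Z, Z, W, W2, W, W, O, O, W⟩),
  (⟨W, W2, O, O, W, W, O, W2, O, W, W, W, O, O, O, W2⟩, ⟨W2, O, Z, O, Z, O, O, W, Z, Z, W, Z, Z, W, Z, W⟩),
  (⟨W, Z, W, Z, O, W, O, O, O, W2, W, Z, W, W, W, W⟩, ⟨W, W2, W, W, Z, O, Z, W2, W2, Z, Z, Z, W, Z, Z, O⟩),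
  (⟨W2, W, W, Z, W, W2, Z, W, W2, W2, W, W2, Z, W, W2, O⟩, ⟨W2, W2, W, O, W2, W, W2, W, W, O, O, Z, W, W, Z, W⟩)]

/-- Left factors. -/
def Y2 : List (M4 (F4) × M4 (F4)) := [
  (⟨W, W, W, W, W, W, W2, W2, W, W2, Z, W, W2, W, Z, O⟩, ⟨Z, W, Z, W2, O, W2, O, O, W, W2, Z, W, Z, W2, O, O⟩),
  (⟨O, O, W2, W, W2, Z, Z, W, O, O, W2, W2, Z, Z, W, W⟩, ⟨W, W2, W2, Z, O, Z, Z, O, Z, O, O, O, W2, W, W2, O⟩),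
  (⟨W2, Z, W2, W2, O, W, W2, W2, Z, Z, W, O, W, W2, O, W⟩, ⟨W2, Z, W2, W, O, W, Z, Z, W2, W2, W2, W, W2, W2, O, Z⟩),
  (⟨W2, W, W, W2, O, Z, W2, Z, W, Z, O, W2, O, W2, W, W2⟩, ⟨O, Z, W2, W2, W2, W, W2, O, Z, W, Z, O, W, W, Z, O⟩),
  (⟨W, O, Z, Z, O, W2, O, W, O, O, W2, Z, W, W, W, W2⟩, ⟨W2, W2, O, Z, O, W2, Z, W, W, W2, O, Z, W, W, Z, W2⟩),
  (⟨W, Z, Z, Z, W2, O, Z, Z, W2, W, W2, W, O, W2, Z, O⟩, ⟨W, Z, W, Z, O, W2, O, O, O, Z, W, O, W2, W, W2, O⟩),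
  (⟨W, W2, W, W2, Z, O, O, W, W, Z, W, W, O, W, W2, W2⟩, ⟨W2, W2, Z, Z, O, W, O, O, O, O, O, W2, Z, Z, W, W⟩),
  (⟨W, O, O, Z, O, W2, O, W2, Z, O, W2, Z, O, O, O, W2⟩, ⟨Z, O, W2, Z, O, W, W2, W2, W2, W, W, W2, W2, W, O, W⟩),
  (⟨W2, O, O, O, W2, W2, W2, W, O, W2, Z, W2, W2, W, W2, W2⟩, ⟨W, Z, Z, Z, W, Z, Z, W2, W, W, W2, W2, Z, W, Z, W2⟩),
  (⟨W, W2, W2, Z, O, O, W, Z, Z, W, O, O, W, O, Z, W⟩, ⟨Z, O, W, W2, W2, Z, O, O, W2, O, W2, W2, O, O, W, O⟩),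
  (⟨O, W, W2, Z, W2, O, W2, W2, Z, O, W, W, Z, W, O, W2⟩, ⟨W, Z, W, O, W2, O, Z, O, O, W, W2, Z, Z, O, W2, W⟩),
  (⟨O, W2, Z, W2, W, W2, Z, W2, Z, Z, W, O, O, W, W, O⟩, ⟨W, O, W, O, W, O, Z, W, W2, Z, W2, O, O, O, W2, W⟩),
  (⟨W2, Z, W2, Z, O, Z, O, O, Z, W, W, O, W2, O, W2, Z⟩, ⟨W, O, O, W2, Z, W2, Z, W, Z, Z, W2, Z, Z, W2, O, Z⟩),
  (⟨O, W2, O, W, W, W, O, Z, W, O, O, Z, Z, Z, O, W⟩, ⟨W, W, W, W, Z, O, Z, O, W2, O, Z, O, W2, Z, W, O⟩),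
  (⟨W2, W, Z, W, O, Z, W, W2, Z, W, O, W2, W2, O, W2, Z⟩, ⟨W, W2, W2, W, O, W, Z, Z, O, O, W2, W, O, W2, W2, O⟩),
  (⟨O, W, W2, W, W, Z, W2, O, W, O, Z, O, O, O, W, W⟩, ⟨W, Z, W2, W2, Z, W, W2, Z, O, W2, Z, W, W2, W, W, W⟩),
  (⟨W2, O, Z, O, O, W2, W, W, W2, Z, W2, W2, O, Z, O, W2⟩, ⟨Z, W2, O, W2, W2, O, Z, Z, W2, W2, Z, Z, W, Z, W2, W2⟩),
  (⟨O, Z, W2, Z, W2, W, W, O, Z, W2, O, Z, W, Z, O, W2⟩, ⟨W, W2, O, Z, W, W, O, Z, W2, Z, W2, O, O, Z, O, O⟩),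
  (⟨O, W2, O, W, W2, W2, W2, W, Z, O, W2, Z, O, W2, W, W2⟩, ⟨O, W2, W, O, W, W2, W, W2, W2, W2, Z, O, W2, W, W2, Z⟩)]

/-- Left factors. -/
def Y : List (M4 (F4) × M4 (F4)) :=
  Y0 ++ Y1 ++ Y2

/-- Certificates. -/
def data0 : List (Cert (F4)) := [
  ⟨2, false, ⟨W, W, Z, O, W, Z, Z, Z, Z, Z, Z, W2, Z, Z, W2, W2⟩⟩,
  ⟨78, false, ⟨O, O, O, O, W2, O, W, Z, O, W2, W2, Z, W, Z, Z, W⟩⟩,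
  ⟨8, false, ⟨O, W2, W2, W2, O, W2, O, Z, W, W2, W, Z, W, W2, Z, O⟩⟩,
  ⟨4, false, ⟨W2, Z, Z, W, O, W2, W, Z, W2, Z, W, O, Z, Z, Z, W⟩⟩,
  ⟨7, false, ⟨W2, W2, O, Z, O, O, Z, W, W2, W, W2, Z, W, O, Z, W2⟩⟩,
  ⟨6, false, ⟨O, W, Z, W, O, O, W2, W2, O, W, W, Z, Z, Z, W2, W⟩⟩,
  ⟨8, false, ⟨W, O, W, O, W, W2, Z, Z, Z, Z, O, W2, W2, O, W, W2⟩⟩,
  ⟨14, false, ⟨W, W, W2, W2, W2, O, W2, Z, Z, W, Z, Z, W2, Z, O, Z⟩⟩,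
  ⟨1, false, ⟨Z, O, W2, O, O, Z, O, W2, Z, O, W2, Z, Z, Z, O, Z⟩⟩,
  ⟨11, false, ⟨Z, Z, W, Z, Z, W, O, O, W2, W, W2, W2, Z, O, O, Z⟩⟩,
  ⟨8, false, ⟨W2, Z, Z, O, W2, O, W, Z, W, O, Z, W2, Z, O, W, Z⟩⟩,
  ⟨27, false, ⟨Z, W2, O, Z, W, W2, O, W2, W2, Z, W2, W2, Z, O, O, Z⟩⟩,
  ⟨3, false, ⟨O, O, W, O, Z, O, W, W2, Z, Z, O, Z, Z, Z, O, O⟩⟩,
  ⟨28, false, ⟨W, W2, Z, O, Z, O, W, W2, O, W2, O, Z, W, Z, W2, W⟩⟩,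
  ⟨8, false, ⟨O, W, O, W, W, O, Z, Z, W, W, Z, Z, Z, W2, W, W⟩⟩,
  ⟨11, false, ⟨W, W, Z, W, W, W2, Z, W2, W, W, W, W2, Z, Z, O, O⟩⟩,
  ⟨10, false, ⟨W, O, O, W, W, O, Z, Z, O, Z, Z, Z, O, Z, Z, O⟩⟩,
  ⟨13, false, ⟨Z, O, W2, W, W2, W, Z, O, W2, W, W2, Z, W2, W2, O, W2⟩⟩,
  ⟨10, false, ⟨O, Z, O, Z, Z, W, Z, O, O, Z, Z, Z, Z, O, Z, Z⟩⟩,
  ⟨2, false, ⟨O, O, W, W2, W2, O, W2, O, Z, Z, W2, W, Z, Z, W2, W2⟩⟩,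
  ⟨12, false, ⟨W2, Z, W2, W, O, W2, W2, W2, O, Z, W2, Z, Z, Z, Z, W⟩⟩,
  ⟨23, false, ⟨Z, O, W, Z, W2, O, W, O, W2, O, Z, Z, Z, O, Z, Z⟩⟩,
  ⟨0, false, ⟨W2, W2, W, W, O, O, Z, Z, W2, Z, Z, Z, W, Z, Z, O⟩⟩,
  ⟨55, false, ⟨O, W, W, O, Z, Z, W, O, W, W2, W, W, Z, O, O, Z⟩⟩,
  ⟨51, false, ⟨Z, W, O, W2, W, O, Z, W2, Z, W, W2, Z, Z, Z, W2, Z⟩⟩,
  ⟨1, false, ⟨W, W2, O, O, W, W, Z, Z, W2, W, Z, Z, W, O, O, W⟩⟩,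
  ⟨3, false, ⟨O, Z, Z, W2, Z, W, O, O, Z, Z, O, Z, Z, Z, Z, W2⟩⟩,
  ⟨11, false, ⟨W2, W2, O, O, W, O, O, Z, O, O, O, W2, Z, Z, W, W⟩⟩,
  ⟨4, false, ⟨W, W, Z, O, Z, W, Z, O, O, O, W2, W2, Z, Z, W2, W2⟩⟩,
  ⟨7, false, ⟨W, W, O, W, O, O, Z, W, W2, W, W2, Z, O, W2, W2, W2⟩⟩,
  ⟨8, false, ⟨W2, W2, O, O, Z, W, Z, W2, Z, Z, W, Z, Z, Z, W2, W2⟩⟩,
  ⟨5, false, ⟨W2, W, W, O, W, Z, O, Z, Z, Z, Z, W2, O, Z, Z, O⟩⟩,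
  ⟨31, false, ⟨O, W, W2, Z, Z, O, W, O, W2, O, W2, Z, Z, O, Z, Z⟩⟩,
  ⟨10, false, ⟨W2, Z, W2, O, O, O, W2, O, W, W, W2, Z, Z, O, W, W⟩⟩,
  ⟨27, false, ⟨W, W, W, Z, W2, W, Z, W2, O, W2, O, W2, Z, O, W, W⟩⟩,
  ⟨0, false, ⟨W2, W2, Z, Z, W2, W, Z, Z, O, O, W2, O, Z, Z, O, O⟩⟩,
  ⟨55, false, ⟨O, W2, W, W, W, O, Z, W, Z, W, W, Z, W, Z, W, W⟩⟩,
  ⟨13, false, ⟨W, W, O, Z, O, W, O, W, O, O, O, O, Z, Z, W, W⟩⟩,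
  ⟨7, false, ⟨O, O, Z, Z, W, O, O, O, Z, Z, W, W2, Z, Z, W, W⟩⟩,
  ⟨36, false, ⟨W2, O, W2, Z, Z, O, Z, Z, W2, W2, O, Z, O, Z, W2, O⟩⟩,
  ⟨0, false, ⟨O, W, O, W2, O, O, Z, O, Z, W2, W2, Z, W2, Z, W, W2⟩⟩,
  ⟨3, false, ⟨O, Z, O, Z, O, O, O, W, W, W2, W2, Z, W2, Z, W2, O⟩⟩,
  ⟨15, false, ⟨W2, Z, Z, W, O, O, W2, Z, W, O, O, Z, W2, Z, Z, W2⟩⟩,
  ⟨57, false, ⟨Z, Z, O, W, W2, W, O, O, O, Z, Z, W2, Z, Z, Z, W2⟩⟩,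
  ⟨11, false, ⟨Z, O, W2, W, O, O, W, O, O, W2, W, W2, Z, O, W, W⟩⟩,
  ⟨10, false, ⟨Z, O, O, O, W2, O, Z, W, O, Z, Z, Z, Z, W, Z, W⟩⟩,
  ⟨2, false, ⟨W, W, Z, O, W, Z, W2, W2, O, O, Z, Z, O, Z, O, O⟩⟩,
  ⟨17, false, ⟨W2, Z, O, W2, Z, W2, W2, W, O, Z, Z, O, Z, Z, Z, W⟩⟩,
  ⟨14, false, ⟨Z, Z, W, W, O, O, Z, W, W2, Z, Z, Z, Z, Z, Z, O⟩⟩,
  ⟨29, false, ⟨O, O, Z, W2, W2, Z, W, W, W, O, W, Z, W, O, Z, W2⟩⟩,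
  ⟨0, false, ⟨O, Z, W2, Z, W, W2, O, W, O, O, W, Z, W, Z, O, W⟩⟩,
  ⟨6, false, ⟨O, Z, Z, Z, W2, W, Z, O, Z, W2, O, Z, Z, O, Z, Z⟩⟩,
  ⟨3, false, ⟨W2, O, W, W, O, Z, W2, Z, W2, O, W, W2, Z, Z, O, W2⟩⟩,
  ⟨3, false, ⟨W, W2, Z, W2, O, W2, O, Z, W, Z, O, O, Z, O, W2, W2⟩⟩,
  ⟨12, false, ⟨W2, Z, O, W2, W2, Z, O, W, W, O, Z, W, Z, O, O, Z⟩⟩,
  ⟨2, false, ⟨Z, W, W, W2, O, W2, Z, Z, W, W2, Z, Z, O, Z, W, O⟩⟩,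
  ⟨15, false, ⟨W, W, W, W, Z, O, Z, O, Z, Z, W2, Z, Z, Z, O, O⟩⟩,
  ⟨2, false, ⟨Z, W, W2, W2, W, W, W2, Z, Z, W2, W, W, Z, Z, W2, Z⟩⟩,
  ⟨8, false, ⟨W2, Z, W, W2, Z, W2, W2, W2, Z, Z, W, Z, Z, Z, Z, W⟩⟩,
  ⟨3, false, ⟨O, Z, Z, Z, O, W, Z, Z, W, W, O, W2, W, O, Z, W2⟩⟩,
  ⟨19, false, ⟨W, W, W, O, W2, O, W2, W2, W, Z, Z, O, W2, Z, Z, W2⟩⟩,
  ⟨53, false, ⟨W2, W2, W2, O, W, Z, W, Z, Z, Z, Z, W, W2, Z, Z, W2⟩⟩,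
  ⟨1, false, ⟨W, Z, W2, O, O, O, O, W, O, Z, O, Z, Z, Z, Z, O⟩⟩,
  ⟨0, false, ⟨W, W, W2, O, W2, O, W2, O, W, W, O, Z, Z, Z, W2, W2⟩⟩,
  ⟨2, false, ⟨Z, W2, W2, W2, O, O, W, Z, W, O, W, O, O, Z, W, O⟩⟩,
  ⟨10, false, ⟨W, Z, O, W, W, W, W2, O, O, Z, Z, W, Z, Z, Z, W2⟩⟩,
  ⟨11, false, ⟨Z, Z, O, W2, O, W, W, Z, W2, W2, O, Z, Z, Z, W, W⟩⟩,
  ⟨9, false, ⟨W2, W2, Z, W2, W2, O, Z, O, W2, W2, O, Z, Z, Z, W2, W2⟩⟩,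
  ⟨4, false, ⟨O, O, O, Z, W2, W, W, O, Z, Z, W, W2, Z, Z, O, O⟩⟩,
  ⟨2, false, ⟨Z, Z, W2, Z, Z, W, W2, O, W, W, W2, W, Z, Z, W2, W2⟩⟩,
  ⟨13, false, ⟨O, Z, Z, Z, W, O, Z, Z, Z, Z, O, W, Z, Z, Z, O⟩⟩,
  ⟨10, false, ⟨Z, Z, W, Z, Z, Z, Z, O, W2, Z, O, O, Z, O, W, W⟩⟩,
  ⟨6, false, ⟨O, O, W, O, Z, O, O, Z, W2, W2, Z, W2, Z, Z, O, O⟩⟩,
  ⟨1, false, ⟨O, O, O, Z, W2, W, W2, Z, O, Z, W2, W2, Z, W, O, O⟩⟩,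
  ⟨6, false, ⟨W, W, W2, W, O, W, Z, Z, Z, W2, Z, Z, Z, O, O, Z⟩⟩,
  ⟨3, false, ⟨Z, Z, W, Z, Z, O, Z, Z, W2, Z, W, Z, Z, Z, Z, O⟩⟩,
  ⟨2, false, ⟨O, O, O, Z, Z, O, O, O, Z, Z, O, Z, Z, O, Z, Z⟩⟩,
  ⟨38, false, ⟨W, W, Z, W, W2, O, W2, W, W2, W2, W, W, Z, Z, W2, W2⟩⟩,
  ⟨10, false, ⟨W2, W, W2, W, W2, O, W2, O, W2, W, Z, Z, O, W, Z, Z⟩⟩,
  ⟨37, false, ⟨W2, W2, O, Z, O, W, W, Z, W2, W2, Z, W2, Z, Z, W, W⟩⟩,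
  ⟨13, false, ⟨W, W, Z, O, W, O, O, W, Z, Z, O, W, Z, Z, W, W⟩⟩,
  ⟨34, false, ⟨W, W2, W, Z, O, O, W2, O, O, O, W, Z, Z, O, Z, Z⟩⟩,
  ⟨2, false, ⟨W, Z, W2, W2, O, W2, W2, W, W, Z, Z, W, Z, Z, Z, W⟩⟩,
  ⟨0, false, ⟨Z, W2, W2, Z, O, Z, W2, O, W, O, Z, Z, W, O, O, W⟩⟩,
  ⟨11, false, ⟨O, Z, Z, W, W, W, W2, W, Z, W, W, Z, Z, O, W, Z⟩⟩,
  ⟨0, false, ⟨Z, O, Z, W2, Z, W, W2, O, W2, W, O, Z, W, Z, W2, Z⟩⟩,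
  ⟨9, false, ⟨O, W, W, Z, Z, W, Z, Z, O, O, W2, Z, W, Z, W, W2⟩⟩,
  ⟨8, false, ⟨W, Z, W, Z, O, W, O, W, W2, Z, Z, W, Z, Z, Z, W2⟩⟩,
  ⟨43, false, ⟨O, O, Z, O, Z, O, Z, O, W, W, O, W, Z, O, O, Z⟩⟩,
  ⟨5, false, ⟨Z, W2, O, Z, W, W, W2, W2, W2, W2, W2, W2, Z, O, O, Z⟩⟩]

/-- Certificates. -/
def data1 : List (Cert (F4)) := [
  ⟨0, false, ⟨Z, Z, O, W, O, W2, Z, W2, Z, W2, W, Z, Z, Z, O, Z⟩⟩,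
  ⟨1, false, ⟨W, W2, O, Z, W2, Z, W, Z, W, W2, O, W, Z, Z, W, O⟩⟩,
  ⟨23, false, ⟨W, W, O, Z, O, Z, Z, W2, W2, W, O, Z, O, W, Z, W2⟩⟩,
  ⟨15, false, ⟨Z, O, O, W, O, W, Z, W, W, W, W2, Z, O, Z, W2, O⟩⟩,
  ⟨9, false, ⟨O, Z, W2, Z, Z, W, Z, O, W, Z, Z, Z, Z, Z, Z, W2⟩⟩,
  ⟨11, false, ⟨Z, W2, O, Z, O, W2, O, W, O, O, W2, Z, O, Z, O, W⟩⟩,
  ⟨0, false, ⟨O, Z, W2, W2, W, O, W, O, W2, Z, W2, Z, Z, Z, Z, O⟩⟩,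
  ⟨18, false, ⟨O, O, Z, O, W2, W2, W2, Z, W2, W, W2, Z, Z, W, W2, O⟩⟩,
  ⟨14, false, ⟨Z, W, W, W, W, W2, W2, O, W, O, Z, Z, O, Z, W2, O⟩⟩,
  ⟨21, false, ⟨O, W2, W, W2, W, Z, W, W, O, O, Z, Z, Z, O, W, W⟩⟩,
  ⟨27, false, ⟨W, Z, O, W2, Z, W2, O, Z, Z, Z, W2, Z, Z, Z, Z, W⟩⟩,
  ⟨2, false, ⟨W, W, Z, Z, W2, Z, Z, Z, O, W2, Z, W2, Z, O, W, W⟩⟩,
  ⟨26, false, ⟨Z, Z, Z, W2, O, Z, Z, O, W, W, W, Z, Z, Z, O, O⟩⟩,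
  ⟨3, false, ⟨W2, W, W, Z, Z, O, W2, O, W, O, W2, Z, Z, O, Z, Z⟩⟩,
  ⟨18, false, ⟨W, Z, O, W, W2, W2, O, Z, W, Z, W, O, Z, Z, Z, W⟩⟩,
  ⟨18, false, ⟨W, W, O, Z, W2, O, O, W2, O, O, O, O, Z, Z, W2, W2⟩⟩,
  ⟨24, false, ⟨W, W, W, O, O, W, Z, Z, Z, Z, W, O, Z, Z, W, W⟩⟩,
  ⟨5, false, ⟨W2, W, O, W2, W, Z, O, W2, Z, Z, Z, W2, O, Z, Z, W2⟩⟩,
  ⟨1, false, ⟨W2, O, W2, W2, W2, O, W, Z, W, O, W, W, W2, W2, Z, Z⟩⟩,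
  ⟨4, false, ⟨W2, Z, W2, Z, W2, W, W2, W2, Z, Z, W, W2, Z, Z, Z, W2⟩⟩,
  ⟨32, false, ⟨W2, Z, W2, W2, W, W2, O, Z, W, Z, Z, W2, Z, Z, Z, W⟩⟩,
  ⟨2, false, ⟨Z, O, W2, O, Z, Z, W, Z, Z, O, W, Z, W2, W2, Z, O⟩⟩,
  ⟨11, false, ⟨W2, W2, W2, Z, W2, W2, W, O, Z, O, Z, W, Z, O, W, W⟩⟩,
  ⟨1, false, ⟨W, W, W, W, Z, W2, O, W, Z, Z, W2, Z, Z, Z, W, W⟩⟩,
  ⟨24, false, ⟨O, W, W2, W2, O, Z, W2, Z, W2, Z, W, W2, W, O, Z, O⟩⟩,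
  ⟨14, false, ⟨O, Z, W2, Z, W2, O, W, W2, W, O, Z, Z, O, Z, W2, O⟩⟩,
  ⟨15, false, ⟨W2, W, O, Z, O, W, Z, W2, O, Z, Z, Z, O, Z, Z, W2⟩⟩,
  ⟨9, false, ⟨W, Z, O, W, O, Z, W2, Z, W2, W2, W, W2, Z, O, O, Z⟩⟩,
  ⟨4, false, ⟨W2, W2, W, O, O, Z, W, O, W2, W, W2, Z, O, W2, Z, W⟩⟩,
  ⟨15, false, ⟨W2, W2, W, Z, W, Z, O, Z, W, W, O, W, Z, Z, W2, W2⟩⟩,
  ⟨1, false, ⟨Z, W2, O, Z, W2, W2, W2, O, O, W, W, Z, O, Z, O, W⟩⟩,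
  ⟨28, false, ⟨O, Z, W, W2, W, W, W, O, O, Z, W2, W, Z, Z, Z, W2⟩⟩,
  ⟨1, false, ⟨W, O, Z, W, W2, O, O, Z, O, Z, Z, O, W, O, O, Z⟩⟩,
  ⟨5, false, ⟨O, O, O, O, W, W2, Z, O, O, O, W, W2, Z, Z, O, O⟩⟩,
  ⟨2, false, ⟨Z, W, W2, O, O, Z, Z, W, Z, O, W, Z, Z, Z, O, Z⟩⟩,
  ⟨25, false, ⟨W, O, W2, W2, W, W2, O, O, O, W, W, Z, W2, Z, O, Z⟩⟩,
  ⟨6, false, ⟨W2, W, O, W2, Z, O, W2, W2, W, W, W2, Z, W, Z, W2, Z⟩⟩,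
  ⟨1, false, ⟨W, Z, O, O, Z, O, W2, W2, Z, Z, W2, Z, Z, Z, Z, O⟩⟩,
  ⟨19, false, ⟨W, W, Z, W2, W2, Z, Z, Z, O, O, Z, O, Z, Z, W, W⟩⟩,
  ⟨41, false, ⟨W, W2, W, W, O, W2, W2, W2, O, Z, Z, O, O, Z, Z, W2⟩⟩,
  ⟨2, false, ⟨W, Z, W2, O, O, W2, Z, W2, W, Z, Z, Z, Z, Z, Z, W⟩⟩,
  ⟨15, false, ⟨W, W, O, O, O, Z, O, W, W2, W, Z, Z, W2, W, O, W⟩⟩,
  ⟨5, false, ⟨W, O, W2, W2, O, Z, W, Z, Z, Z, Z, O, W2, Z, Z, W⟩⟩,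
  ⟨9, false, ⟨W2, W2, W, O, W2, Z, W2, O, O, W2, Z, Z, O, W, Z, Z⟩⟩,
  ⟨11, false, ⟨W, Z, W, W, O, W, W2, W, Z, O, W, Z, W2, W2, Z, O⟩⟩,
  ⟨3, false, ⟨W, Z, O, Z, W2, O, W, W2, W2, W2, O, Z, O, Z, W2, O⟩⟩,
  ⟨17, false, ⟨O, O, W, Z, W, W2, O, W, O, O, O, W, Z, Z, O, O⟩⟩,
  ⟨14, false, ⟨W, Z, W2, W, W2, W2, W, O, Z, Z, W2, W2, Z, Z, Z, W⟩⟩,
  ⟨1, false, ⟨O, O, Z, O, Z, W2, W2, Z, W, O, W, W, O, Z, W2, W2⟩⟩,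
  ⟨2, false, ⟨O, W, Z, W, W, O, O, W, Z, W, W, Z, Z, O, W, Z⟩⟩,
  ⟨0, false, ⟨O, W, W, W, O, O, Z, Z, W2, Z, Z, Z, Z, O, Z, O⟩⟩,
  ⟨8, false, ⟨Z, W, O, W2, O, W, Z, Z, W2, W, W2, W, Z, O, W, W⟩⟩,
  ⟨37, false, ⟨O, Z, Z, Z, Z, O, Z, O, O, Z, O, Z, Z, O, Z, Z⟩⟩,
  ⟨9, false, ⟨O, Z, W2, W, Z, W, W2, O, W, Z, Z, W2, Z, Z, Z, W2⟩⟩,
  ⟨1, false, ⟨W, Z, W2, W, Z, O, O, Z, Z, Z, W2, Z, Z, Z, Z, O⟩⟩,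
  ⟨1, false, ⟨W, W, O, W2, Z, W2, W, W2, Z, Z, W2, Z, Z, Z, W, W⟩⟩,
  ⟨3, false, ⟨O, O, Z, Z, O, W2, Z, Z, W2, W2, W, W2, Z, Z, W2, W2⟩⟩,
  ⟨11, false, ⟨O, W, W, Z, Z, W2, W, O, Z, Z, O, Z, Z, O, Z, Z⟩⟩,
  ⟨24, false, ⟨O, O, W2, O, W, O, Z, Z, O, W, Z, Z, W2, Z, O, W2⟩⟩,
  ⟨10, false, ⟨W, W2, O, W, O, W2, W, O, W2, W2, W, Z, W2, O, Z, W⟩⟩,
  ⟨54, false, ⟨W2, Z, Z, Z, W2, O, Z, W2, W2, Z, W, O, Z, Z, Z, O⟩⟩,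
  ⟨4, false, ⟨W, Z, W2, O, O, Z, W, O, W2, W, W2, Z, O, W2, Z, W⟩⟩,
  ⟨2, false, ⟨W2, W2, W, Z, W2, W, O, W2, Z, O, Z, W, Z, O, W, W⟩⟩,
  ⟨11, false, ⟨W2, Z, W2, W2, Z, W2, W2, Z, W, Z, Z, W, Z, Z, Z, W⟩⟩,
  ⟨12, false, ⟨Z, Z, W2, Z, Z, W2, W2, O, W, W, W, O, Z, Z, W, W⟩⟩,
  ⟨2, false, ⟨W, W, W2, W, W2, Z, W, W2, W2, W2, O, Z, Z, Z, W, W⟩⟩,
  ⟨1, false, ⟨O, W2, W2, O, W, Z, O, Z, W, O, O, Z, O, Z, Z, O⟩⟩,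
  ⟨10, false, ⟨W2, W, Z, W2, W, W, Z, W2, W, W, O, W, Z, O, O, Z⟩⟩,
  ⟨3, false, ⟨O, O, W2, W2, W, W, Z, Z, W, Z, Z, Z, O, Z, Z, W2⟩⟩,
  ⟨16, false, ⟨W, Z, W2, O, W2, W2, W2, W2, W2, Z, W, O, Z, Z, Z, W⟩⟩,
  ⟨27, false, ⟨W, W2, Z, W, Z, O, W2, O, Z, Z, W2, Z, Z, Z, W, O⟩⟩,
  ⟨10, false, ⟨W, Z, O, O, W, W, Z, W, O, Z, Z, Z, Z, Z, Z, W2⟩⟩,
  ⟨5, false, ⟨W, O, O, Z, O, Z, W, W, Z, Z, Z, O, W2, Z, Z, W2⟩⟩,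
  ⟨17, false, ⟨W2, Z, Z, Z, W2, W, Z, W, W, Z, W, W2, Z, Z, Z, W2⟩⟩,
  ⟨3, false, ⟨W, W2, W, O, W, W, Z, W, Z, W, W, Z, W, Z, O, W⟩⟩,
  ⟨7, false, ⟨W2, Z, Z, Z, W, W2, Z, Z, W, Z, W, O, Z, Z, Z, W⟩⟩,
  ⟨8, false, ⟨W, Z, W, W2, O, W, W, Z, W2, Z, Z, W2, Z, Z, Z, W2⟩⟩,
  ⟨39, false, ⟨Z, W, W, W2, W, O, Z, Z, W2, Z, Z, Z, O, Z, Z, O⟩⟩,
  ⟨0, false, ⟨W2, O, W, O, Z, W2, O, Z, Z, W2, W2, Z, W2, Z, W2, W2⟩⟩,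
  ⟨16, false, ⟨Z, Z, W2, W, W2, O, W, W2, O, O, W2, W2, Z, Z, W2, W2⟩⟩,
  ⟨14, false, ⟨W, Z, W, Z, W2, W2, W2, W2, Z, Z, W2, W2, Z, Z, Z, W⟩⟩,
  ⟨1, false, ⟨O, W, W2, Z, Z, O, Z, Z, W2, O, W2, Z, Z, Z, W, O⟩⟩,
  ⟨0, false, ⟨W, W2, O, Z, O, O, O, O, Z, W2, W2, Z, Z, O, Z, Z⟩⟩,
  ⟨10, false, ⟨O, W2, Z, O, W2, W2, O, W2, W2, W2, W, Z, W, Z, W, W2⟩⟩,
  ⟨24, false, ⟨W2, Z, O, O, W2, O, W2, W2, Z, Z, W, O, Z, Z, Z, O⟩⟩,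
  ⟨4, false, ⟨W2, Z, Z, O, W2, W, W2, W2, Z, Z, W, W2, Z, Z, Z, W2⟩⟩,
  ⟨15, false, ⟨W, W2, W, Z, W, O, Z, O, O, W2, W, Z, Z, O, Z, Z⟩⟩,
  ⟨12, false, ⟨W, W2, W2, W, W2, Z, O, Z, W, O, W2, O, Z, O, W, W⟩⟩,
  ⟨26, false, ⟨O, O, Z, Z, W2, O, W2, W2, Z, O, O, Z, O, Z, O, O⟩⟩,
  ⟨5, false, ⟨O, W, W, O, O, O, O, O, W2, Z, W, O, Z, O, W, W⟩⟩]

/-- Certificates. -/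
def data2 : List (Cert (F4)) := [
  ⟨0, false, ⟨W, W, W, W2, O, W, Z, W, W2, Z, Z, Z, W2, Z, Z, W2⟩⟩,
  ⟨15, false, ⟨W, W2, Z, W, W2, Z, Z, Z, O, Z, Z, W, Z, O, W, W⟩⟩,
  ⟨1, false, ⟨Z, W, W2, O, W2, W, O, Z, O, W, W, Z, O, Z, O, W⟩⟩,
  ⟨50, false, ⟨Z, Z, Z, O, W2, Z, Z, W, O, O, W2, W2, Z, Z, W, W⟩⟩,
  ⟨0, false, ⟨Z, W, O, Z, W2, O, W2, W, W, W, Z, W, Z, O, O, Z⟩⟩,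
  ⟨1, false, ⟨W2, W, O, W2, O, W2, O, Z, Z, W, W, W2, W2, W2, W2, W⟩⟩,
  ⟨8, false, ⟨W2, W, O, W, O, Z, W2, W, Z, W, W2, Z, O, O, Z, W⟩⟩,
  ⟨14, false, ⟨W, Z, O, O, W2, W2, Z, W, Z, Z, W2, W2, Z, Z, Z, W⟩⟩,
  ⟨6, false, ⟨O, O, W2, W2, W2, W, Z, W2, W2, W2, Z, O, Z, Z, O, O⟩⟩,
  ⟨6, false, ⟨Z, O, Z, Z, O, W2, O, Z, O, Z, W, O, Z, O, O, Z⟩⟩,
  ⟨7, false, ⟨O, W2, Z, O, O, O, Z, W, W2, W, W2, Z, O, O, W, O⟩⟩,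
  ⟨11, false, ⟨O, O, W2, W2, O, W2, Z, O, W, W, W2, W, Z, Z, W2, W2⟩⟩,
  ⟨35, false, ⟨Z, Z, Z, W, O, Z, W, O, W, W2, Z, Z, Z, Z, O, W2⟩⟩,
  ⟨1, false, ⟨W, W, W2, Z, Z, W2, Z, Z, Z, Z, W2, Z, Z, Z, W, W⟩⟩,
  ⟨15, false, ⟨Z, Z, W2, W, W, W2, W2, W2, O, O, W2, W, Z, Z, O, O⟩⟩,
  ⟨24, false, ⟨W, W2, Z, W, O, W2, W2, Z, W2, O, W, Z, W, O, W2, O⟩⟩,
  ⟨8, false, ⟨W2, W2, O, W2, Z, W, W2, O, W, O, Z, Z, O, W, Z, Z⟩⟩,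
  ⟨4, false, ⟨O, W, Z, O, O, Z, W, O, W2, W, W2, Z, O, W2, Z, W⟩⟩,
  ⟨2, false, ⟨W2, O, W, O, Z, O, O, W, O, W2, Z, Z, W2, O, Z, Z⟩⟩,
  ⟨32, false, ⟨Z, O, Z, O, O, W, W2, W, Z, O, W, Z, Z, Z, O, Z⟩⟩,
  ⟨43, false, ⟨Z, Z, O, Z, Z, O, W2, W, O, O, W, O, Z, Z, O, O⟩⟩,
  ⟨9, false, ⟨Z, Z, O, Z, Z, W2, W2, W, O, O, W, W, Z, Z, W, W⟩⟩,
  ⟨19, false, ⟨O, W, W, W, W, Z, Z, W, W, W2, W2, Z, Z, Z, W2, W⟩⟩,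
  ⟨1, false, ⟨Z, Z, Z, W, W2, Z, W, Z, Z, W2, Z, W2, W, Z, W2, Z⟩⟩,
  ⟨22, false, ⟨W2, W2, O, W, W, W, W, Z, W, O, W, Z, Z, O, O, W⟩⟩,
  ⟨70, false, ⟨W2, W2, W, O, W2, O, Z, Z, O, W2, Z, Z, O, Z, O, W⟩⟩,
  ⟨5, false, ⟨Z, Z, O, Z, Z, W2, W2, O, O, W2, O, Z, Z, O, Z, Z⟩⟩,
  ⟨18, false, ⟨Z, O, W2, W2, O, W, Z, W, O, W2, O, Z, Z, O, W, W2⟩⟩,
  ⟨20, false, ⟨W, O, W, Z, Z, O, Z, Z, Z, W, W2, Z, W2, W2, Z, O⟩⟩,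
  ⟨0, false, ⟨O, O, Z, Z, Z, W, W2, W2, O, O, O, Z, Z, Z, W2, W2⟩⟩,
  ⟨19, false, ⟨W2, W2, W, Z, W2, W2, W2, O, Z, O, W, Z, Z, O, Z, Z⟩⟩,
  ⟨24, false, ⟨O, O, W2, W2, W, Z, O, Z, O, O, W2, W, W2, Z, O, W2⟩⟩,
  ⟨4, false, ⟨O, O, Z, W, W2, W, W, O, Z, Z, W, W2, Z, Z, O, O⟩⟩,
  ⟨20, false, ⟨O, Z, W, W2, W2, W2, W2, Z, W2, Z, Z, W2, Z, Z, Z, W⟩⟩,
  ⟨12, false, ⟨Z, Z, Z, W2, Z, Z, W2, O, W2, W, O, Z, W, Z, W2, Z⟩⟩,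
  ⟨9, false, ⟨W, Z, W2, W, Z, W, W, O, O, Z, O, O, Z, O, O, Z⟩⟩,
  ⟨19, false, ⟨O, W2, O, Z, W, O, O, O, W, W2, W2, Z, Z, O, Z, Z⟩⟩,
  ⟨1, false, ⟨W2, W2, W, W, W2, W, W2, Z, W2, O, W2, Z, W, W2, O, W⟩⟩,
  ⟨2, false, ⟨W2, W, Z, Z, O, W, W2, O, W2, Z, W, Z, Z, O, Z, Z⟩⟩,
  ⟨8, false, ⟨O, W, W, O, W, O, O, W, O, Z, W2, Z, W, Z, O, O⟩⟩,
  ⟨27, false, ⟨Z, O, W, O, Z, Z, O, Z, Z, Z, W, O, O, W, O, Z⟩⟩,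
  ⟨3, false, ⟨W2, W, W2, W2, Z, Z, W2, O, O, W2, W2, O, Z, O, O, Z⟩⟩,
  ⟨15, false, ⟨Z, O, W, Z, W2, O, O, O, W2, W2, Z, Z, Z, O, Z, Z⟩⟩,
  ⟨12, false, ⟨W2, Z, O, W, O, O, O, W2, W2, Z, W2, Z, Z, Z, Z, O⟩⟩,
  ⟨5, false, ⟨O, W2, W2, W, W2, Z, W2, W, Z, Z, Z, W, W, Z, Z, W⟩⟩,
  ⟨33, false, ⟨O, W2, O, W2, O, W2, W, W, O, W, W, O, Z, O, W, W⟩⟩,
  ⟨2, false, ⟨W, Z, W2, W, O, W2, O, O, W, Z, Z, W2, Z, Z, Z, W⟩⟩,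
  ⟨20, false, ⟨Z, O, O, W2, O, O, W, W, Z, W, W2, Z, Z, Z, O, Z⟩⟩,
  ⟨21, false, ⟨Z, Z, Z, W2, O, Z, Z, O, Z, W, W, Z, W, Z, O, W⟩⟩,
  ⟨23, false, ⟨W, Z, O, O, W2, W2, Z, W, Z, Z, W2, W2, Z, Z, Z, W⟩⟩,
  ⟨7, false, ⟨W, Z, W2, W, O, W, Z, Z, O, Z, O, W2, Z, Z, Z, W2⟩⟩,
  ⟨16, false, ⟨Z, O, O, W2, W2, O, W2, Z, W, O, W, Z, W, Z, W2, W⟩⟩,
  ⟨73, false, ⟨Z, O, O, Z, W2, Z, W, W2, O, W2, Z, Z, W2, W, W, W2⟩⟩,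
  ⟨20, false, ⟨O, W, O, O, W, W2, Z, W2, W, O, Z, O, Z, O, W, W⟩⟩,
  ⟨1, false, ⟨Z, O, O, W2, W2, O, O, Z, Z, Z, W, O, W2, O, W2, Z⟩⟩,
  ⟨27, false, ⟨W2, W, W, W, O, W2, O, Z, O, Z, W2, W2, O, O, Z, Z⟩⟩,
  ⟨59, false, ⟨W2, O, Z, W2, W, Z, O, W2, Z, W2, O, Z, Z, O, O, Z⟩⟩,
  ⟨1, false, ⟨W, Z, W, Z, Z, O, Z, W, Z, Z, W2, Z, Z, Z, Z, O⟩⟩,
  ⟨8, false, ⟨W2, O, Z, W2, W, O, O, Z, W, Z, W2, W2, Z, O, W, W⟩⟩,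
  ⟨19, false, ⟨W2, W, O, O, W, W, W, W2, W, Z, Z, W, W, Z, Z, O⟩⟩,
  ⟨4, false, ⟨W2, Z, W, W, W2, W, W2, W2, Z, Z, W, W2, Z, Z, Z, W2⟩⟩,
  ⟨7, false, ⟨W2, W, O, W, W2, W2, Z, O, W, O, W, Z, W, W, W2, W⟩⟩,
  ⟨9, false, ⟨W, O, O, O, Z, O, O, W2, W, O, W, O, Z, O, W, W⟩⟩,
  ⟨24, false, ⟨W2, W, Z, O, W, O, W, Z, Z, O, W, W2, Z, W, Z, O⟩⟩,
  ⟨22, false, ⟨Z, Z, W2, O, W2, W, O, W, W2, W2, W, W, Z, Z, O, O⟩⟩,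
  ⟨1, false, ⟨Z, O, W, W, W2, O, Z, W2, O, W, W, Z, O, Z, O, W⟩⟩,
  ⟨29, false, ⟨W, W, Z, O, W, Z, O, O, O, W2, O, Z, W, W, W2, W⟩⟩,
  ⟨6, false, ⟨Z, W2, W2, Z, Z, W2, W, Z, O, Z, Z, W2, O, Z, Z, O⟩⟩,
  ⟨21, false, ⟨O, O, W, Z, Z, W2, O, O, O, O, W2, Z, Z, Z, W, W⟩⟩,
  ⟨4, false, ⟨O, Z, O, W2, W2, O, Z, O, W2, W, W2, Z, W2, W, W, W⟩⟩,
  ⟨15, false, ⟨W2, Z, W2, O, W, W2, W2, W2, O, Z, W2, W2, Z, Z, Z, W⟩⟩,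
  ⟨9, false, ⟨W, O, Z, W, O, W2, W, W, Z, O, W, Z, O, O, Z, W⟩⟩,
  ⟨1, false, ⟨Z, W, W2, W, Z, Z, W2, Z, Z, W2, O, Z, W, Z, W, W2⟩⟩,
  ⟨20, false, ⟨O, O, Z, W2, W, W2, O, W2, W, W, W2, W2, Z, Z, O, O⟩⟩,
  ⟨2, false, ⟨O, W, W, W, Z, W, Z, W, W, Z, W, Z, W, Z, W, W2⟩⟩,
  ⟨36, false, ⟨W2, W, O, Z, Z, W2, Z, Z, Z, W, W, Z, W, Z, W, W⟩⟩,
  ⟨71, false, ⟨O, O, W2, W2, Z, W2, Z, W, Z, Z, O, Z, Z, Z, W, W⟩⟩,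
  ⟨18, false, ⟨W2, Z, W, W2, O, W2, Z, W, W, O, W, Z, W, W, W2, W⟩⟩,
  ⟨7, false, ⟨O, O, W, O, Z, W2, O, W, W, W, W, W, Z, Z, W, W⟩⟩,
  ⟨11, false, ⟨O, O, O, Z, W2, Z, W, O, W2, Z, W, Z, Z, O, Z, Z⟩⟩,
  ⟨3, false, ⟨W, W2, W2, Z, Z, W, Z, Z, W, W2, Z, Z, Z, Z, O, W2⟩⟩,
  ⟨3, false, ⟨O, W2, O, Z, W, O, O, O, O, O, Z, Z, Z, O, Z, Z⟩⟩,
  ⟨46, false, ⟨Z, Z, O, W, O, W2, O, Z, W, W, Z, W2, O, W2, W, W2⟩⟩,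
  ⟨14, false, ⟨Z, W, Z, W2, W2, Z, O, Z, W2, W, O, Z, O, W, Z, W2⟩⟩,
  ⟨8, false, ⟨W, Z, W, O, O, W, Z, O, W2, Z, Z, Z, Z, Z, Z, W2⟩⟩,
  ⟨0, false, ⟨W2, W, O, Z, O, O, O, O, W, W2, O, Z, Z, O, Z, Z⟩⟩,
  ⟨10, false, ⟨Z, Z, O, W2, O, W, W2, W, W2, W2, O, O, Z, Z, W, W⟩⟩,
  ⟨12, false, ⟨W2, W2, W, W2, W, W2, Z, W, W2, Z, Z, Z, Z, O, Z, O⟩⟩,
  ⟨1, false, ⟨W, W, O, W, W, Z, O, Z, O, O, W2, W, W, Z, W, W2⟩⟩,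
  ⟨28, false, ⟨W2, W2, W, W2, O, W, O, Z, W, O, W, Z, O, Z, W, O⟩⟩]

/-- Certificates. -/
def data3 : List (Cert (F4)) := [
  ⟨17, false, ⟨O, W2, W, Z, O, W, O, O, Z, O, O, Z, Z, O, Z, Z⟩⟩,
  ⟨8, false, ⟨W2, W2, Z, O, Z, Z, W2, W2, W, W, O, Z, W2, O, Z, W⟩⟩,
  ⟨0, false, ⟨W, Z, W2, O, W2, W, Z, Z, O, Z, O, W, Z, Z, Z, W2⟩⟩,
  ⟨24, false, ⟨Z, O, Z, Z, W, O, W, Z, W2, W2, Z, O, W, W2, O, Z⟩⟩,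
  ⟨36, false, ⟨O, W2, O, O, Z, O, W, O, Z, Z, O, Z, Z, O, O, Z⟩⟩,
  ⟨6, false, ⟨W, W2, W, W, O, W, W2, Z, W, Z, O, Z, W2, Z, W, W2⟩⟩,
  ⟨38, false, ⟨Z, Z, W, O, W, W2, Z, W2, W, W, O, O, Z, Z, O, O⟩⟩,
  ⟨11, false, ⟨O, W, W, Z, W, W, W, W2, W, Z, W, Z, W, Z, W, W2⟩⟩,
  ⟨14, false, ⟨O, W, W2, O, W, Z, W, W, W2, W, O, Z, O, W, Z, W2⟩⟩,
  ⟨0, false, ⟨Z, Z, O, W2, W, W2, W, O, W2, W2, W2, O, Z, Z, O, O⟩⟩,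
  ⟨3, false, ⟨O, O, W, W, O, W, Z, O, W, W2, W2, Z, W2, Z, O, Z⟩⟩,
  ⟨0, false, ⟨O, O, Z, O, W, O, W, W2, W, W, W, O, Z, Z, W, W⟩⟩,
  ⟨1, false, ⟨W2, O, W, Z, W, W, O, Z, O, W, Z, W2, Z, Z, W, O⟩⟩,
  ⟨16, false, ⟨O, O, W2, O, Z, W2, O, W, O, W2, O, Z, W2, Z, O, W2⟩⟩,
  ⟨31, false, ⟨W, O, W, W2, W2, Z, W2, Z, O, W2, O, W2, W2, Z, O, W2⟩⟩,
  ⟨7, false, ⟨W2, Z, O, O, W, W, Z, W2, O, W2, O, Z, Z, O, W, W2⟩⟩,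
  ⟨1, false, ⟨W, Z, Z, W2, Z, O, W, O, Z, Z, W2, Z, Z, Z, Z, O⟩⟩,
  ⟨35, false, ⟨W2, O, W2, Z, O, W2, W2, O, Z, W, W, Z, W, Z, O, W⟩⟩,
  ⟨17, false, ⟨W, O, O, O, O, W, Z, W2, O, Z, Z, Z, Z, O, Z, O⟩⟩,
  ⟨1, false, ⟨W, W, Z, O, Z, W2, W2, O, Z, Z, W2, Z, Z, Z, W, W⟩⟩,
  ⟨22, false, ⟨W, W2, O, W2, O, Z, Z, W, O, W2, O, Z, Z, W, W, W2⟩⟩,
  ⟨3, false, ⟨W2, Z, Z, O, W2, W2, O, O, O, O, Z, Z, Z, O, W, W⟩⟩,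
  ⟨4, false, ⟨O, O, W2, W2, W2, W, W, O, Z, Z, W, W2, Z, Z, O, O⟩⟩,
  ⟨22, false, ⟨O, O, W, O, W, O, W, Z, W, W, O, O, Z, Z, W, W⟩⟩,
  ⟨47, false, ⟨Z, Z, W, W, W, W, W, W2, Z, W2, O, Z, Z, Z, W2, Z⟩⟩,
  ⟨0, false, ⟨W, O, W2, W, Z, Z, W2, O, O, W2, O, O, Z, O, O, Z⟩⟩,
  ⟨4, false, ⟨Z, O, O, O, O, Z, W, O, W2, W, W2, Z, O, W2, Z, W⟩⟩,
  ⟨1, false, ⟨W, W2, W2, W, O, W2, O, Z, O, O, W, O, W, Z, W2, Z⟩⟩,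
  ⟨4, false, ⟨Z, W2, Z, W2, W2, O, Z, O, W2, W, W2, Z, W2, W, W, W⟩⟩,
  ⟨12, false, ⟨W, Z, W2, Z, O, Z, W, O, Z, W2, W2, Z, Z, O, Z, Z⟩⟩,
  ⟨3, false, ⟨Z, Z, O, Z, Z, W, W, Z, O, Z, W2, O, Z, Z, Z, W2⟩⟩,
  ⟨8, false, ⟨Z, Z, W, W2, O, W2, W2, O, O, O, W, Z, Z, Z, W2, W2⟩⟩,
  ⟨4, false, ⟨W2, Z, O, W2, W2, W, W2, W2, Z, Z, W, W2, Z, Z, Z, W2⟩⟩,
  ⟨10, false, ⟨W2, W, W2, W2, O, W2, W, Z, W2, Z, W2, W2, Z, O, O, Z⟩⟩,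
  ⟨0, false, ⟨W2, Z, Z, W, O, W2, W, O, W, Z, W, W, Z, Z, Z, W⟩⟩,
  ⟨10, false, ⟨W, Z, O, W2, W, W, W, Z, O, Z, Z, O, Z, Z, Z, W2⟩⟩,
  ⟨0, false, ⟨W2, O, W2, W2, O, W2, O, W, W, O, W2, O, Z, O, W, W⟩⟩,
  ⟨12, false, ⟨W2, W, W, Z, W2, W, Z, W2, W2, Z, Z, Z, W2, Z, Z, W2⟩⟩,
  ⟨8, false, ⟨W2, W, Z, O, W2, O, W, Z, W, W, O, Z, W, Z, W, W2⟩⟩,
  ⟨14, false, ⟨W2, W, W, W, Z, Z, W2, O, W2, W, O, Z, O, W, Z, W2⟩⟩,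
  ⟨32, false, ⟨O, O, W, W, W, W, W, W, Z, W, W, Z, Z, O, W, Z⟩⟩,
  ⟨1, false, ⟨Z, Z, Z, W2, W2, Z, W, W, O, W, W, Z, O, Z, O, W⟩⟩,
  ⟨34, false, ⟨Z, W2, Z, W2, W, W2, W2, W2, Z, W, W2, Z, Z, Z, W2, Z⟩⟩,
  ⟨31, false, ⟨W2, W, O, O, W, O, O, Z, W2, W2, O, O, W, W2, W, Z⟩⟩,
  ⟨6, false, ⟨Z, Z, Z, W2, O, Z, W, W2, W2, W, Z, Z, W, Z, W, W2⟩⟩,
  ⟨1, false, ⟨W, W, W, Z, Z, O, Z, Z, W2, W2, Z, Z, Z, W, O, O⟩⟩,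
  ⟨7, false, ⟨W, O, O, W2, W, W, Z, W2, O, W2, O, Z, W2, W2, O, W2⟩⟩,
  ⟨9, false, ⟨O, Z, W2, W2, Z, W, O, O, W, Z, Z, O, Z, Z, Z, W2⟩⟩,
  ⟨34, false, ⟨W2, W2, O, W, W, Z, W, O, W, W, W2, W2, Z, Z, W2, W2⟩⟩,
  ⟨41, false, ⟨O, W2, Z, W2, W2, Z, Z, Z, W2, W, Z, Z, W, Z, W, W2⟩⟩,
  ⟨3, false, ⟨W, W, W, W2, Z, O, W2, O, W, W, O, W2, Z, Z, O, O⟩⟩]

/-- Certificates. -/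
def data : List (Cert (F4)) :=
  data0 ++ data1 ++ data2 ++ data3

/-- The field elements in enumeration order. -/
def es : List (F4) := [Z, O, W, W2]

/-- Square classes. -/
def cs : List ((F4) × (F4)) := [(O, O)]

/-- Class representatives of `SL₂`. -/
def hs : List ((F4) × (F4) × (F4) × (F4)) := [(O, Z, Z, O), (Z, O, O, Z), (Z, O, O, O), (Z, O, O, W), (Z, O, O, W2)]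

/-- Conjugacy certificates. -/
def slData0 : List (SLCert (F4)) := [
  ((Z, O, O, Z), (Z, O, O, Z), (Z, O, O, Z)),
  ((Z, O, O, O), (Z, O, O, O), (Z, O, O, O)),
  ((Z, O, O, W), (Z, O, O, W), (Z, O, O, W)),
  ((Z, O, O, W2), (Z, O, O, W2), (Z, O, O, W2)),
  ((Z, W, W2, Z), (Z, O, O, Z), (Z, W2, W, Z)),
  ((Z, W, W2, O), (Z, O, O, O), (Z, W2, W, W)),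
  ((Z, W, W2, W), (Z, O, O, W), (Z, W2, W, W2)),
  ((Z, W, W2, W2), (Z, O, O, W2), (Z, W2, W, O)),
  ((Z, W2, W, Z), (Z, O, O, Z), (Z, W, W2, Z)),
  ((Z, W2, W, O), (Z, O, O, O), (Z, W, W2, W2)),
  ((Z, W2, W, W), (Z, O, O, W), (Z, W, W2, O)),
  ((Z, W2, W, W2), (Z, O, O, W2), (Z, W, W2, W)),
  ((O, Z, Z, O), (O, Z, Z, O), (Z, O, O, Z)),
  ((O, Z, O, O), (Z, O, O, Z), (O, O, Z, O)),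
  ((O, Z, W, O), (Z, O, O, Z), (W, W, Z, W2)),
  ((O, Z, W2, O), (Z, O, O, Z), (W2, W2, Z, W)),
  ((O, O, Z, O), (Z, O, O, Z), (Z, O, O, O)),
  ((O, O, O, Z), (Z, O, O, O), (Z, O, O, Z)),
  ((O, O, W, W2), (Z, O, O, W), (Z, O, O, W2)),
  ((O, O, W2, W), (Z, O, O, W2), (Z, O, O, W)),
  ((O, W, Z, O), (Z, O, O, Z), (Z, W2, W, W)),
  ((O, W, O, W2), (Z, O, O, W), (Z, W2, W, O)),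
  ((O, W, W, W), (Z, O, O, W2), (Z, W2, W, W2)),
  ((O, W, W2, Z), (Z, O, O, O), (Z, W2, W, Z)),
  ((O, W2, Z, O), (Z, O, O, Z), (Z, W, W2, W2)),
  ((O, W2, O, W), (Z, O, O, W2), (Z, W, W2, O)),
  ((O, W2, W, Z), (Z, O, O, O), (Z, W, W2, Z)),
  ((O, W2, W2, W2), (Z, O, O, W), (Z, W, W2, W)),
  ((W, Z, Z, W2), (Z, O, O, O), (O, W, O, W2)),
  ((W, Z, O, W2), (Z, O, O, O), (O, W, Z, O)),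
  ((W, Z, W, W2), (Z, O, O, O), (O, W, W2, Z)),
  ((W, Z, W2, W2), (Z, O, O, O), (O, W, W, W)),
  ((W, O, Z, W2), (Z, O, O, O), (Z, O, O, W2)),
  ((W, O, O, Z), (Z, O, O, W), (Z, O, O, Z)),
  ((W, O, W, W), (Z, O, O, Z), (Z, O, O, W)),
  ((W, O, W2, O), (Z, O, O, W2), (Z, O, O, O)),
  ((W, W, Z, W2), (Z, O, O, O), (Z, W2, W, O)),
  ((W, W, O, W), (Z, O, O, Z), (Z, W2, W, W2)),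
  ((W, W, W, O), (Z, O, O, W2), (Z, W2, W, W)),
  ((W, W, W2, Z), (Z, O, O, W), (Z, W2, W, Z)),
  ((W, W2, Z, W2), (Z, O, O, O), (Z, W, W2, W)),
  ((W, W2, O, O), (Z, O, O, W2), (Z, W, W2, W2)),
  ((W, W2, W, Z), (Z, O, O, W), (Z, W, W2, Z)),
  ((W, W2, W2, W), (Z, O, O, Z), (Z, W, W2, O)),
  ((W2, Z, Z, W), (Z, O, O, O), (O, W2, O, W)),
  ((W2, Z, O, W), (Z, O, O, O), (O, W2, Z, O)),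
  ((W2, Z, W, W), (Z, O, O, O), (O, W2, W2, W2)),
  ((W2, Z, W2, W), (Z, O, O, O), (O, W2, W, Z)),
  ((W2, O, Z, W), (Z, O, O, O), (Z, O, O, W)),
  ((W2, O, O, Z), (Z, O, O, W2), (Z, O, O, Z)),
  ((W2, O, W, O), (Z, O, O, W), (Z, O, O, O)),
  ((W2, O, W2, W2), (Z, O, O, Z), (Z, O, O, W2)),
  ((W2, W, Z, W), (Z, O, O, O), (Z, W2, W, W2)),
  ((W2, W, O, O), (Z, O, O, W), (Z, W2, W, W)),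
  ((W2, W, W, W2), (Z, O, O, Z), (Z, W2, W, O)),
  ((W2, W, W2, Z), (Z, O, O, W2), (Z, W2, W, Z)),
  ((W2, W2, Z, W), (Z, O, O, O), (Z, W, W2, O)),
  ((W2, W2, O, W2), (Z, O, O, Z), (Z, W, W2, W)),
  ((W2, W2, W, Z), (Z, O, O, W2), (Z, W, W2, Z)),
  ((W2, W2, W2, O), (Z, O, O, W), (Z, W, W2, W2))]

/-- Conjugacy certificates. -/
def slData : List (SLCert (F4)) :=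
  slData0

theorem covers : CoversSL hs :=
  coversSL_of_check hs slData (by decide +kernel) (by decide +kernel)

theorem cs_spec : ∀ c : F4, c ≠ 0 → ∃ d ∈ cs, ∃ l : F4, l ≠ 0 ∧ d.1 = l * l * c ∧ d.1 * d.2 = 1 := by
  decide +kernel

theorem x_pow : M4.pow x 15 = M4.one := by decide +kernel

theorem x_symp : x.IsSymp := by decide +kernel

theorem y_check : checkY x Y = true := by decide +kernel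

theorem all_check : checkAll x Y (forms es cs hs) data = true := by decide +kernel

end CfsgLib.SpFourCover.Four
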