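import Mathlib

/-!
The alternating form on four coordinates and symplectic bases.
-/

set_option autoImplicit false

namespace CfsgLib.SpFourCover

open Matrix

/-- Indices of the four coordinates. -/
abbrev Idx : Type := Fin 2 ⊕ Fin 2

/-- Four by four matrices. -/
abbrev Mat (F : Type*) : Type _ := Matrix Idx Idx F

variable {F : Type*} [Field F]

/-- The form: `ω e₁ f₁ = ω e₂ f₂ = 1`. -/
def ω (u v : Idx → F) : F :=
  u (.inl 0) * v (.inr 0) - u (.inr 0) * v (.inl 0) +
    (u (.inl 1) * v (.inr 1) - u (.inr 1) * v (.inl 1))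

theorem ω_self (u : Idx → F) : ω u u = 0 := by simp only [ω]; ring

theorem ω_swap (u v : Idx → F) : ω u v = -ω v u := by simp only [ω]; ring

theorem ω_add_right (u v w : Idx → F) : ω u (v + w) = ω u v + ω u w := by
  simp only [ω, Pi.add_apply]; ring

theorem ω_smul_right (u v : Idx → F) (a : F) : ω u (a • v) = a * ω u v := by
  simp only [ω, Pi.smul_apply, smul_eq_mul]; ring

theorem ω_sub_right (u v w : Idx → F) : ω u (v - w) = ω u v - ω u w := by
  simp only [ω, Pi.sub_apply]; ring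

theorem ω_add_left (u v w : Idx → F) : ω (u + v) w = ω u w + ω v w := by
  simp only [ω, Pi.add_apply]; ring

theorem ω_smul_left (u v : Idx → F) (a : F) : ω (a • u) v = a * ω u v := by
  simp only [ω, Pi.smul_apply, smul_eq_mul]; ring

theorem ω_zero_right (u : Idx → F) : ω u 0 = 0 := by simp [ω]

theorem eq_zero_of_ω {u : Idx → F} (h : ∀ z, ω u z = 0) : u = 0 := by
  funext i
  rcases i with i | i
  · fin_cases i
    · simpa [ω, Pi.single_apply] using h (Pi.single (Sum.inr 0) 1)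
    · simpa [ω, Pi.single_apply] using h (Pi.single (Sum.inr 1) 1)
  · fin_cases i
    · simpa [ω, Pi.single_apply] using h (Pi.single (Sum.inl 0) 1)
    · simpa [ω, Pi.single_apply] using h (Pi.single (Sum.inl 1) 1)

theorem exists_ω_eq_one {u : Idx → F} (h : u ≠ 0) : ∃ z, ω u z = 1 := by
  obtain ⟨z, hz⟩ : ∃ z, ω u z ≠ 0 := by
    by_contra hc
    push Not at hc
    exact h (eq_zero_of_ω hc)
  exact ⟨(ω u z)⁻¹ • z, by rw [ω_smul_right, inv_mul_cancel₀ hz]⟩

/-- A vector dual to the first of two independent vectors. -/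
theorem exists_dual {a b : Idx → F} (hb : b ≠ 0) (h : ∀ c : F, a ≠ c • b) :
    ∃ z, ω a z = 1 ∧ ω b z = 0 := by
  obtain ⟨z0, hz0⟩ := exists_ω_eq_one hb
  obtain ⟨z, hz⟩ : ∃ z, ω (a - ω a z0 • b) z ≠ 0 := by
    by_contra hc
    push Not at hc
    exact h _ (sub_eq_zero.1 (eq_zero_of_ω hc))
  have e : ω (a - ω a z0 • b) z = ω a (z - ω b z • z0) := by
    simp only [ω, Pi.sub_apply, Pi.smul_apply, smul_eq_mul]; ring
  refine ⟨(ω (a - ω a z0 • b) z)⁻¹ • (z - ω b z • z0), ?_, ?_⟩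
  · rw [ω_smul_right, ← e, inv_mul_cancel₀ hz]
  · rw [ω_smul_right, ω_sub_right, ω_smul_right, hz0]
    ring

/-- The orthogonal complement of a hyperbolic pair is a hyperbolic plane. -/
theorem exists_perp_pair {v f : Idx → F} (h : ω v f = 1) :
    ∃ a b, ω v a = 0 ∧ ω f a = 0 ∧ ω v b = 0 ∧ ω f b = 0 ∧ ω a b = 1 := by
  obtain ⟨pr, hpr⟩ : ∃ pr : (Idx → F) → Idx → F, ∀ z, pr z = z - ω v z • f + ω f z • v := ⟨_, fun _ => rfl⟩
  have hv : ∀ z, ω v (pr z) = 0 := fun z => by
    rw [hpr, ω_add_right, ω_sub_right, ω_smul_right, ω_smul_right, h, ω_self]; ring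
  have hf : ∀ z, ω f (pr z) = 0 := fun z => by
    rw [hpr, ω_add_right, ω_sub_right, ω_smul_right, ω_smul_right, ω_self, ω_swap f v, h]; ring
  obtain ⟨z1, hz1⟩ : ∃ z, pr z ≠ 0 := by
    by_contra hc
    push Not at hc
    have key : ∀ z z' : Idx → F, ω z z' = ω v z * ω f z' - ω f z * ω v z' := by
      intro z z'
      have e1 : z = ω v z • f - ω f z • v := by
        have := (hpr z).symm.trans (hc z)
        rw [← sub_eq_zero, ← this]; abel
      conv_lhs => rw [e1]
      simp only [ω, Pi.sub_apply, Pi.smul_apply, smul_eq_mul]; ring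
    -- four coordinate vectors cannot lie in a plane
    obtain ⟨e, he⟩ : ∃ e : Idx → Idx → F, ∀ i, e i = Pi.single i 1 := ⟨_, fun _ => rfl⟩
    have p : ω (e (.inl 0)) (e (.inr 0)) * ω (e (.inl 1)) (e (.inr 1))
        - ω (e (.inl 0)) (e (.inl 1)) * ω (e (.inr 0)) (e (.inr 1))
        + ω (e (.inl 0)) (e (.inr 1)) * ω (e (.inr 0)) (e (.inl 1)) = 0 := by
      rw [key (e (.inl 0)) (e (.inr 0)),
        key (e (.inl 1)) (e (.inr 1)),
        key (e (.inl 0)) (e (.inl 1)),
        key (e (.inr 0)) (e (.inr 1)),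
        key (e (.inl 0)) (e (.inr 1)),
        key (e (.inr 0)) (e (.inl 1))]
      ring
    rw [he, he, he, he] at p
    revert p
    simp only [ω, Pi.single_apply, reduceCtorEq, Sum.inl.injEq, Sum.inr.injEq, if_true, if_false,
      one_ne_zero, zero_ne_one]
    norm_num
  obtain ⟨z2, hz2⟩ := exists_ω_eq_one hz1
  refine ⟨pr z1, pr z2, hv _, hf _, hv _, hf _, ?_⟩
  rw [hpr z2, ω_add_right, ω_sub_right, ω_smul_right, ω_smul_right, ω_swap (pr z1) v,
    ω_swap (pr z1) f, hv, hf, hz2]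
  ring

theorem mulVec_inj_ω {A : Mat F} (h : ∀ u v, ω (A *ᵥ u) (A *ᵥ v) = ω u v) {u : Idx → F}
    (hu : A *ᵥ u = 0) : u = 0 :=
  eq_zero_of_ω fun z => by rw [← h, hu]; simp [ω]

/-- Matrices keeping the form are symplectic, and conversely. -/
theorem ω_mulVec (A : Matrix.symplecticGroup (Fin 2) F) (u v : Idx → F) :
    ω ((A : Mat F) *ᵥ u) ((A : Mat F) *ᵥ v) = ω u v := by
  have e : ∀ u v : Idx → F, ω u v = -(u ⬝ᵥ (J (Fin 2) F *ᵥ v)) := fun u v => by
    simp [ω, Matrix.J, dotProduct, Fintype.sum_sum_type, Matrix.mulVec, Matrix.one_apply]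
    ring
  rw [e, e, mulVec_mulVec, dotProduct_mulVec, vecMul_mulVec, ← Matrix.mul_assoc,
    SymplecticGroup.mem_iff'.1 A.2, ← dotProduct_mulVec]

theorem mem_of_cols (A : Mat F) (h1 : ω (A.col (.inl 0)) (A.col (.inr 0)) = 1)
    (h2 : ω (A.col (.inl 1)) (A.col (.inr 1)) = 1)
    (h3 : ω (A.col (.inl 0)) (A.col (.inl 1)) = 0) (h4 : ω (A.col (.inl 0)) (A.col (.inr 1)) = 0)
    (h5 : ω (A.col (.inr 0)) (A.col (.inl 1)) = 0) (h6 : ω (A.col (.inr 0)) (A.col (.inr 1)) = 0) :
    A ∈ Matrix.symplecticGroup (Fin 2) F := by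
  rw [SymplecticGroup.mem_iff']
  simp only [ω, Matrix.col_apply] at h1 h2 h3 h4 h5 h6
  ext (i | i) (j | j) <;> fin_cases i <;> fin_cases j <;>
    simp [Matrix.mul_apply, Fintype.sum_sum_type, Matrix.J, Fin.sum_univ_two, Matrix.one_apply] <;>
    first
      | ring1 | linear_combination -h1 | linear_combination h1 | linear_combination -h2
      | linear_combination h2 | linear_combination h3 | linear_combination -h3
      | linear_combination h4 | linear_combination -h4 | linear_combination h5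
      | linear_combination -h5 | linear_combination h6 | linear_combination -h6

/-- A hyperbolic pair is the image of the first coordinate pair. -/
theorem exists_frame {v f : Idx → F} (h : ω v f = 1) :
    ∃ P : Matrix.symplecticGroup (Fin 2) F, (P : Mat F) *ᵥ Pi.single (.inl 0) 1 = v ∧
      (P : Mat F) *ᵥ Pi.single (.inr 0) 1 = f := by
  obtain ⟨a, b, hva, hfa, hvb, hfb, hab⟩ := exists_perp_pair h
  refine ⟨⟨Matrix.of fun i j => (Sum.elim ![v, a] ![f, b] j) i, mem_of_cols _ ?_ ?_ ?_ ?_ ?_ ?_⟩,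
    ?_, ?_⟩
  · simpa [ω, Matrix.col_apply, Matrix.transpose_apply] using h
  · simpa [ω, Matrix.col_apply, Matrix.transpose_apply] using hab
  · simpa [ω, Matrix.col_apply, Matrix.transpose_apply] using hva
  · simpa [ω, Matrix.col_apply, Matrix.transpose_apply] using hvb
  · simpa [ω, Matrix.col_apply, Matrix.transpose_apply] using hfa
  · simpa [ω, Matrix.col_apply, Matrix.transpose_apply] using hfb
  · funext i
    rw [Matrix.mulVec_single_one]
    simp
  · funext i
    rw [Matrix.mulVec_single_one]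
    simp

/-- The key choice: a hyperbolic pair on which the middle part of `g` is not the scalar `ε`. -/
theorem exists_pair (g : Mat F) (v : Idx → F) (hgv : g *ᵥ v ≠ 0)
    (hind : ∀ c : F, v ≠ c • g *ᵥ v) (t ε : F) (ht : t ≠ 0) (hε : ε ≠ 0) :
    ∃ f, ω v f = 1 ∧ ω (g *ᵥ v) f = t ∧ ∃ w, ω v w = 0 ∧ ω f w = 0 ∧
      ∀ α β : F, g *ᵥ w - ε • w ≠ α • g *ᵥ v + β • f := by
  by_contra hne
  push Not at hne
  -- a vector in both plane images lies on the line of `g v`
  have line : ∀ w f d, ω v w = 0 → ω v f = 1 → ω (g *ᵥ v) f = t → ω f w = 0 → ω v d = 0 →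
      ω (g *ᵥ v) d = 0 → ω d w = 0 → (∀ c : F, d ≠ c • g *ᵥ v) →
      ∃ α : F, g *ᵥ w - ε • w = α • g *ᵥ v := by
    intro w f d hvw hvf hgf hfw hvd hgd hdw hd
    obtain ⟨α, β, hab⟩ := hne f hvf hgf w hvw hfw
    obtain ⟨α', β', hab'⟩ := hne (f + d) (by rw [ω_add_right, hvf, hvd, add_zero])
      (by rw [ω_add_right, hgf, hgd, add_zero]) w hvw (by rw [ω_add_left, hfw, hdw, add_zero])
    have e := congrArg (ω (g *ᵥ v)) (hab.symm.trans hab')
    simp only [ω_add_right, ω_smul_right, ω_self, hgf, hgd] at e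
    have eb : β = β' := mul_right_cancel₀ ht (by linear_combination e)
    subst eb
    have hzero : β • d = (α - α') • g *ᵥ v := by
      have := hab.symm.trans hab'
      rw [sub_smul, ← sub_eq_zero]
      rw [← sub_eq_zero] at this
      rw [← neg_eq_zero, ← this, smul_add]
      abel
    by_cases hb : β = 0
    · exact ⟨α, by rw [hab, hb, zero_smul, add_zero]⟩
    · exact absurd (by rw [← smul_smul, ← hzero, smul_smul, inv_mul_cancel₀ hb, one_smul])
        (hd (β⁻¹ * (α - α')))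
  -- two vectors differing by `v` finish
  have fin : ∀ w, (∃ α : F, g *ᵥ w - ε • w = α • g *ᵥ v) →
      (∃ α : F, g *ᵥ (w + v) - ε • (w + v) = α • g *ᵥ v) → False := by
    rintro w ⟨α, hα⟩ ⟨β, hβ⟩
    refine hind (ε⁻¹ * (1 - (β - α))) ?_
    have h3 : g *ᵥ v - ε • v = (β - α) • g *ᵥ v := by
      rw [sub_smul, ← hα, ← hβ, mulVec_add, smul_add]; abel
    have h4 : ε • v = (1 - (β - α)) • g *ᵥ v := by
      rw [sub_smul, one_smul, ← h3]; abel
    rw [← smul_smul, ← h4, smul_smul, inv_mul_cancel₀ hε, one_smul]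
  obtain ⟨u, hu⟩ : ∃ u, u = g *ᵥ v := ⟨_, rfl⟩
  by_cases hc : ω v u = 0
  · obtain ⟨p, hp1, hp2⟩ := exists_dual hgv hind
    obtain ⟨p', hq1, hq2⟩ := exists_dual (a := g *ᵥ v) (b := v)
      (by rintro rfl; simp at hgv) (fun c hcc => by
        rcases eq_or_ne c 0 with rfl | hc0
        · simp at hcc; exact hgv hcc
        · exact hind c⁻¹ (by rw [hcc, smul_smul, inv_mul_cancel₀ hc0, one_smul]))
    obtain ⟨q, hq⟩ : ∃ q, q = p' + ω p p' • v := ⟨_, rfl⟩
    rw [hu] at hc
    have hgv' : ω (g *ᵥ v) v = 0 := by rw [ω_swap, hc, neg_zero]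
    have hpv : ω p v = -1 := by rw [ω_swap, hp1]
    have hvq : ω v q = 0 := by rw [hq, ω_add_right, hq2, ω_smul_right, ω_self]; ring
    have hgq : ω (g *ᵥ v) q = 1 := by rw [hq, ω_add_right, hq1, ω_smul_right, hgv']; ring
    have hpq : ω p q = 0 := by rw [hq, ω_add_right, ω_smul_right, hpv]; ring
    have hd : ∀ c : F, v ≠ c • g *ᵥ v := hind
    have step : ∀ l : F, ∃ α : F,
        g *ᵥ (q + l • v) - ε • (q + l • v) = α • g *ᵥ v := fun l => by
      refine line _ (p + t • q + l • g *ᵥ v) v ?_ ?_ ?_ ?_ (ω_self v) hgv' ?_ hd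
      · rw [ω_add_right, ω_smul_right, hvq, ω_self]; ring
      · rw [ω_add_right, ω_add_right, ω_smul_right, ω_smul_right, hp1, hvq, hc]; ring
      · rw [ω_add_right, ω_add_right, ω_smul_right, ω_smul_right, hp2, hgq, ω_self]; ring
      · simp only [ω_add_left, ω_smul_left, ω_add_right, ω_smul_right, ω_self, hpq, hgq, hgv', hpv,
          ω_swap q v, hvq]
        ring
      · rw [ω_add_right, ω_smul_right, hvq, ω_self]; ring
    refine fin q ?_ ?_
    · simpa using step 0
    · simpa using step 1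
  · obtain ⟨r, hr⟩ : ∃ r, r = (ω v u)⁻¹ • u := ⟨_, rfl⟩
    have hvr : ω v r = 1 := by rw [hr, ω_smul_right, inv_mul_cancel₀ hc]
    obtain ⟨a, b, hva, hra, hvb, hrb, hab⟩ := exists_perp_pair hvr
    have hua : ω u a = 0 := by
      rw [hr, ω_smul_left] at hra
      simpa [hc] using hra
    have hub : ω u b = 0 := by
      rw [hr, ω_smul_left] at hrb
      simpa [hc] using hrb
    rw [hu] at hc hua hub
    have hgvv : ω (g *ᵥ v) v = -ω v (g *ᵥ v) := ω_swap _ _
    have hd : ∀ c : F, a ≠ c • g *ᵥ v := fun c hcc => by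
      rw [hcc, ω_smul_right] at hva
      rcases mul_eq_zero.1 hva with h0 | h0
      · rw [hcc, h0, zero_smul] at hab; simp [ω] at hab
      · exact hc h0
    obtain ⟨c, hcdef⟩ : ∃ c, c = ω v (g *ᵥ v) := ⟨_, rfl⟩
    rw [← hcdef] at hc hgvv
    obtain ⟨f, hf⟩ : ∃ f, f = (-(t * c⁻¹)) • v + c⁻¹ • g *ᵥ v := ⟨_, rfl⟩
    have hvf : ω v f = 1 := by
      rw [hf, ω_add_right, ω_smul_right, ω_smul_right, ω_self, ← hcdef, inv_mul_cancel₀ hc]; ring
    have hgf : ω (g *ᵥ v) f = t := by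
      rw [hf, ω_add_right, ω_smul_right, ω_smul_right, ω_self, hgvv]; field_simp; ring
    have hfa : ω f a = 0 := by
      rw [hf, ω_add_left, ω_smul_left, ω_smul_left, hva, hua]; ring
    refine fin a (line a f a hva hvf hgf hfa hva hua (ω_self a) hd) ?_
    refine line _ (f - b) a ?_ ?_ ?_ ?_ hva hua ?_ hd
    · rw [ω_add_right, hva, ω_self, add_zero]
    · rw [ω_sub_right, hvf, hvb, sub_zero]
    · rw [ω_sub_right, hgf, hub, sub_zero]
    · rw [ω_add_right, sub_eq_add_neg, ω_add_left, ω_add_left, hfa, ω_swap f v, hvf]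
      have e1 : ω (-b) a = 1 := by
        rw [← neg_one_smul F b, ω_smul_left, ω_swap b a, hab]; ring
      have e2 : ω (-b) v = 0 := by
        rw [← neg_one_smul F b, ω_smul_left, ω_swap b v, hvb]; ring
      rw [e1, e2]; ring
    · rw [ω_add_right, ω_self, ω_swap a v, hva]; ring

end CfsgLib.SpFourCover
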