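import Cfsg.Agent.SpFourCover.Basic

/-!
Every non-central element of `Sp₄` is conjugate to a product of a lower and an upper unitriangular
element; hence the square of a regular class of the split torus covers them.
-/

set_option autoImplicit false

namespace CfsgLib.SpFourCover

open Matrix

variable {F : Type*} [Field F]

/-- Upper unitriangular for the order `e₁, e₂, f₂, f₁`. -/
def IsUpper (M : Mat F) : Prop :=
  M (.inl 0) (.inl 0) = 1 ∧ M (.inl 1) (.inl 1) = 1 ∧ M (.inr 1) (.inr 1) = 1 ∧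
  M (.inr 0) (.inr 0) = 1 ∧ M (.inl 1) (.inl 0) = 0 ∧ M (.inr 1) (.inl 0) = 0 ∧
  M (.inr 1) (.inl 1) = 0 ∧ M (.inr 0) (.inl 0) = 0 ∧ M (.inr 0) (.inl 1) = 0 ∧
  M (.inr 0) (.inr 1) = 0

theorem isUpper_one : IsUpper (1 : Mat F) := by simp [IsUpper]

theorem isUpper_mul {M N : Mat F} (hM : IsUpper M) (hN : IsUpper N) : IsUpper (M * N) := by
  obtain ⟨a1, a2, a3, a4, a5, a6, a7, a8, a9, a10⟩ := hM
  obtain ⟨b1, b2, b3, b4, b5, b6, b7, b8, b9, b10⟩ := hN
  refine ⟨?_, ?_, ?_, ?_, ?_, ?_, ?_, ?_, ?_, ?_⟩ <;>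
    simp [Matrix.mul_apply, Fintype.sum_sum_type, Fin.sum_univ_two, *]

theorem isUpper_transpose_mul {M N : Mat F} (hM : IsUpper Mᵀ) (hN : IsUpper Nᵀ) :
    IsUpper (M * N)ᵀ := by
  rw [Matrix.transpose_mul]; exact isUpper_mul hN hM

/-- The lower unitriangular element with given parameters. -/
def lowerMat (a b c y : F) : Mat F :=
  Matrix.fromBlocks !![1, 0; a, 1] 0 !![b, c - a * y; c, y] !![1, -a; 0, 1]

theorem lowerMat_mem (a b c y : F) : lowerMat a b c y ∈ Matrix.symplecticGroup (Fin 2) F := by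
  refine mem_of_cols _ ?_ ?_ ?_ ?_ ?_ ?_ <;> simp [ω, lowerMat] <;> ring

theorem isUpper_lower_transpose (a b c y : F) : IsUpper (lowerMat a b c y)ᵀ := by
  simp [IsUpper, lowerMat]

/-- `SL₂` acting on the middle pair. -/
def midMat (s00 s01 s10 s11 : F) : Mat F :=
  Matrix.fromBlocks !![1, 0; 0, s00] !![0, 0; 0, s01] !![0, 0; 0, s10] !![1, 0; 0, s11]

theorem midMat_mem (s00 s01 s10 s11 : F) (h : s00 * s11 - s10 * s01 = 1) :
    midMat s00 s01 s10 s11 ∈ Matrix.symplecticGroup (Fin 2) F := by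
  refine mem_of_cols _ ?_ ?_ ?_ ?_ ?_ ?_ <;> simp [ω, midMat] <;> linear_combination h

/-- The Schur complement on the middle pair, first entry. -/
def schur00 (g : Mat F) : F := g (.inl 1) (.inl 1) - g (.inl 1) (.inl 0) * g (.inl 0) (.inl 1)
/-- The Schur complement on the middle pair, upper right entry. -/
def schur01 (g : Mat F) : F := g (.inl 1) (.inr 1) - g (.inl 1) (.inl 0) * g (.inl 0) (.inr 1)
/-- The Schur complement on the middle pair, lower left entry. -/
def schur10 (g : Mat F) : F := g (.inr 1) (.inl 1) - g (.inr 1) (.inl 0) * g (.inl 0) (.inl 1)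
/-- The Schur complement on the middle pair, last entry. -/
def schur11 (g : Mat F) : F := g (.inr 1) (.inr 1) - g (.inr 1) (.inl 0) * g (.inl 0) (.inr 1)

local notation "Sp" => Matrix.symplecticGroup (Fin 2) F

theorem mem_center_of_scalar (g : Sp) (h : ∀ v : Idx → F, ∃ c : F, (g : Mat F) *ᵥ v = c • v) :
    g ∈ Subgroup.center Sp := by
  choose c hc using fun i : Idx => h (Pi.single i 1)
  have hcol : ∀ j i : Idx, (g : Mat F) i j = c j * if i = j then 1 else 0 := fun j i => by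
    have := congrFun (hc j) i
    simpa [Pi.single_apply] using this
  have heq : ∀ j, c j = c (.inl 0) := by
    intro j
    by_cases hj : j = .inl 0
    · rw [hj]
    obtain ⟨d, hd⟩ := h (Pi.single (.inl 0) 1 + Pi.single j 1)
    have h0 := congrFun hd (.inl 0)
    have h1 := congrFun hd j
    rw [mulVec_add, hc, hc] at h0 h1
    simp [Pi.single_apply, hj, Ne.symm hj] at h0 h1
    rw [h1, ← h0]
  rw [Subgroup.mem_center_iff]
  intro x
  apply Subtype.ext
  have hg : (g : Mat F) = Matrix.scalar Idx (c (.inl 0)) := by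
    ext i j
    rw [hcol, heq j]
    by_cases hij : i = j <;> simp [hij]
  show (x : Mat F) * g = g * x
  rw [hg]
  exact (Matrix.scalar_commute _ (fun r => Commute.all _ r) _).symm.eq

theorem single_l0 (A : Mat F) (i : Idx) : (A *ᵥ Pi.single (.inl 0) 1) i = A i (.inl 0) := by
  simp

/-- A non-central element is conjugate to one with corner `1` and middle part not `-1`. -/
theorem exists_corner (g : Sp) (hg : g ∉ Subgroup.center Sp) :
    ∃ P : Sp, ((P⁻¹ * g * P : Sp) : Mat F) (.inl 0) (.inl 0) = 1 ∧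
      ¬(schur00 ((P⁻¹ * g * P : Sp) : Mat F) = -1 ∧ schur01 ((P⁻¹ * g * P : Sp) : Mat F) = 0 ∧
        schur10 ((P⁻¹ * g * P : Sp) : Mat F) = 0 ∧ schur11 ((P⁻¹ * g * P : Sp) : Mat F) = -1) := by
  obtain ⟨v, hv⟩ : ∃ v : Idx → F, ∀ c : F, (g : Mat F) *ᵥ v ≠ c • v := by
    by_contra hc
    push Not at hc
    exact hg (mem_center_of_scalar g hc)
  have hgv : (g : Mat F) *ᵥ v ≠ 0 := fun h => hv 0 (by rw [h, zero_smul])
  have hind : ∀ c : F, v ≠ c • (g : Mat F) *ᵥ v := fun c hc => by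
    rcases eq_or_ne c 0 with rfl | hc0
    · rw [zero_smul] at hc
      exact hgv (by rw [hc, mulVec_zero])
    · refine hv c⁻¹ ?_
      conv_rhs => rw [hc, smul_smul, inv_mul_cancel₀ hc0, one_smul]
  obtain ⟨f, hvf, hgf, w, hvw, hfw, hw⟩ :=
    exists_pair (g : Mat F) v hgv hind 1 (-1) one_ne_zero (neg_ne_zero.2 one_ne_zero)
  obtain ⟨P, hPe, hPf⟩ := exists_frame hvf
  refine ⟨P, ?_⟩
  have hk : ∀ x : Idx → F, ((P⁻¹ * g * P : Sp) : Mat F) *ᵥ x
      = ((P⁻¹ : Sp) : Mat F) *ᵥ ((g : Mat F) *ᵥ ((P : Mat F) *ᵥ x)) := fun x => by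
    rw [mulVec_mulVec, mulVec_mulVec]; rfl
  have hPP : ∀ x : Idx → F, (P : Mat F) *ᵥ (((P⁻¹ : Sp) : Mat F) *ᵥ x) = x := fun x => by
    rw [mulVec_mulVec, show (P : Mat F) * ((P⁻¹ : Sp) : Mat F) = ((P * P⁻¹ : Sp) : Mat F) from rfl,
      mul_inv_cancel]
    simp
  obtain ⟨M, hM⟩ : ∃ M : Mat F, M = ((P⁻¹ * g * P : Sp) : Mat F) := ⟨_, rfl⟩
  rw [← hM] at hk ⊢
  have hPM : ∀ x, (P : Mat F) *ᵥ (M *ᵥ x) = (g : Mat F) *ᵥ ((P : Mat F) *ᵥ x) := fun x => by
    rw [hk, hPP]
  have hcorner : M (.inl 0) (.inl 0) = 1 := by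
    rw [← hgf, ← hPe, ← hPf, ← hPM, ω_mulVec]
    simp [ω, Pi.single_apply]
  refine ⟨hcorner, fun hs => ?_⟩
  obtain ⟨s1, s2, s3, s4⟩ := hs
  simp only [schur00, schur01, schur10, schur11] at s1 s2 s3 s4
  obtain ⟨x, hx⟩ : ∃ x, x = ((P⁻¹ : Sp) : Mat F) *ᵥ w := ⟨_, rfl⟩
  have hxw : (P : Mat F) *ᵥ x = w := by rw [hx, hPP]
  have hx0 : x (.inr 0) = 0 := by
    have : ω ((P : Mat F) *ᵥ Pi.single (.inl 0) 1) ((P : Mat F) *ᵥ x) = 0 := by rw [hPe, hxw, hvw]
    rw [ω_mulVec] at this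
    simpa [ω, Pi.single_apply] using this
  have hx1 : x (.inl 0) = 0 := by
    have : ω ((P : Mat F) *ᵥ Pi.single (.inr 0) 1) ((P : Mat F) *ᵥ x) = 0 := by rw [hPf, hxw, hfw]
    rw [ω_mulVec] at this
    simpa [ω, Pi.single_apply] using this
  obtain ⟨al, hal⟩ : ∃ al, al = M (.inl 0) (.inl 1) * x (.inl 1) + M (.inl 0) (.inr 1) * x (.inr 1) :=
    ⟨_, rfl⟩
  obtain ⟨be, hbe⟩ : ∃ be, be = M (.inr 0) (.inl 1) * x (.inl 1) + M (.inr 0) (.inr 1) * x (.inr 1)
      - al * M (.inr 0) (.inl 0) := ⟨_, rfl⟩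
  refine hw al be ?_
  have hvec : M *ᵥ x - (-1 : F) • x
      = al • (M *ᵥ Pi.single (.inl 0) 1) + be • (Pi.single (.inr 0) 1 : Idx → F) := by
    funext i
    simp only [Pi.sub_apply, Pi.add_apply, Pi.smul_apply, smul_eq_mul, single_l0]
    simp only [Matrix.mulVec, dotProduct, Fintype.sum_sum_type, Fin.sum_univ_two, hx0, hx1]
    rcases i with i | i <;> fin_cases i <;>
      simp [Pi.single_apply, hal, hbe, hcorner, hx0, hx1] <;>
      first
        | ring1
        | linear_combination x (.inl 1) * s1 + x (.inr 1) * s2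
        | linear_combination x (.inl 1) * s3 + x (.inr 1) * s4
  rw [← hxw, ← hPM, ← hPe, ← hPM, ← hPf, ← mulVec_smul, ← mulVec_sub, hvec, mulVec_add,
    mulVec_smul, mulVec_smul]

theorem mulVec_single_entry (M : Mat F) (i j : Idx) : (M *ᵥ Pi.single j 1) i = M i j := by simp

/-- An element with unit leading minors is lower times upper. -/
theorem exists_lower_mul_upper (g : Sp) (h1 : (g : Mat F) (.inl 0) (.inl 0) = 1)
    (h2 : schur00 (g : Mat F) = 1) :
    ∃ L U : Sp, IsUpper (L : Mat F)ᵀ ∧ IsUpper (U : Mat F) ∧ g = L * U := by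
  obtain ⟨c, hc⟩ : ∃ c : Idx → Idx → F, ∀ i j, (g : Mat F) i j = c i j := ⟨_, fun _ _ => rfl⟩
  obtain ⟨a, ha⟩ : ∃ a, a = c (.inl 1) (.inl 0) := ⟨_, rfl⟩
  obtain ⟨b, hb⟩ : ∃ b, b = c (.inr 0) (.inl 0) := ⟨_, rfl⟩
  obtain ⟨e, he⟩ : ∃ e, e = c (.inr 1) (.inl 0) := ⟨_, rfl⟩
  obtain ⟨y, hy⟩ : ∃ y, y = schur10 (g : Mat F) := ⟨_, rfl⟩
  obtain ⟨L, hL⟩ : ∃ L : Sp, (L : Mat F) = lowerMat a b e y := ⟨⟨_, lowerMat_mem a b e y⟩, rfl⟩
  refine ⟨L, L⁻¹ * g, by rw [hL]; exact isUpper_lower_transpose a b e y, ?_, by group⟩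
  obtain ⟨U, hU⟩ : ∃ U : Sp, U = L⁻¹ * g := ⟨_, rfl⟩
  rw [← hU]
  have hLU : (g : Mat F) = (L : Mat F) * (U : Mat F) := by
    rw [hU, show (L : Mat F) * ((L⁻¹ * g : Sp) : Mat F) = ((L * (L⁻¹ * g) : Sp) : Mat F) from rfl,
      mul_inv_cancel_left]
  obtain ⟨p, hp⟩ : ∃ p, p = c (.inl 0) (.inl 1) := ⟨_, rfl⟩
  have hB := fun u v => ω_mulVec g u v
  have c0 : (U : Mat F) *ᵥ Pi.single (.inl 0) 1 = Pi.single (.inl 0) 1 := by
    have hinj : (L : Mat F) *ᵥ ((U : Mat F) *ᵥ Pi.single (.inl 0) 1 - Pi.single (.inl 0) 1) = 0 := by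
      rw [mulVec_sub, mulVec_mulVec, ← hLU, hL]
      funext i
      simp only [Pi.sub_apply, mulVec_single_entry]
      rcases i with i | i <;> fin_cases i <;> simp [lowerMat, ha, hb, he, ← hc, h1]
    exact sub_eq_zero.1 (mulVec_inj_ω (ω_mulVec L) hinj)
  have c1 : (U : Mat F) *ᵥ Pi.single (.inl 1) 1 = p • Pi.single (.inl 0) 1 + Pi.single (.inl 1) 1 := by
    have hinj : (L : Mat F) *ᵥ ((U : Mat F) *ᵥ Pi.single (.inl 1) 1
        - (p • Pi.single (.inl 0) 1 + Pi.single (.inl 1) 1)) = 0 := by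
      rw [mulVec_sub, mulVec_add, mulVec_smul, mulVec_mulVec, ← hLU, hL]
      have hiso := hB (Pi.single (.inl 0) 1) (Pi.single (.inl 1) 1)
      simp [ω, Pi.single_apply] at hiso
      simp only [schur00] at h2
      simp only [schur10] at hy
      funext i
      simp only [Pi.sub_apply, Pi.add_apply, Pi.smul_apply, mulVec_single_entry, smul_eq_mul]
      rcases i with i | i <;> fin_cases i <;> simp [lowerMat, ha, hb, he, hp, hy, ← hc] <;>
        first
          | ring1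
          | linear_combination h2
          | linear_combination hiso + (g : Mat F) (.inr 1) (.inl 0) * h2
              - (g : Mat F) (.inr 0) (.inl 1) * h1
    exact sub_eq_zero.1 (mulVec_inj_ω (ω_mulVec L) hinj)
  have r : ∀ z, ω (Pi.single (.inl 0) 1) ((U : Mat F) *ᵥ z) = ω (Pi.single (.inl 0) 1) z := fun z => by
    conv_lhs => rw [← c0]
    exact ω_mulVec U _ _
  have r' : ∀ z, ω (p • Pi.single (.inl 0) 1 + Pi.single (.inl 1) 1) ((U : Mat F) *ᵥ z) =
      ω (Pi.single (.inl 1) 1) z := fun z => by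
    conv_lhs => rw [← c1]
    exact ω_mulVec U _ _
  have a00 := congrFun c0 (.inl 0)
  have a10 := congrFun c0 (.inl 1)
  have a20 := congrFun c0 (.inr 0)
  have a30 := congrFun c0 (.inr 1)
  have a11 := congrFun c1 (.inl 1)
  have a21 := congrFun c1 (.inr 0)
  have a31 := congrFun c1 (.inr 1)
  have a22 := r (Pi.single (.inr 0) 1)
  have a23 := r (Pi.single (.inr 1) 1)
  have a33 := r' (Pi.single (.inr 1) 1)
  simp [ω, Pi.single_apply] at a00 a10 a20 a30 a11 a21 a31 a22 a23 a33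
  rw [a23] at a33
  refine ⟨a00, a11, ?_, a22, a10, a30, a31, a20, a21, a23⟩
  simpa using a33

/-- The middle element conjugation. -/
theorem schur00_mid (g : Mat F) (s00 s01 s10 s11 : F) (hdet : s00 * s11 - s10 * s01 = 1)
    (m : Sp) (hm : (m : Mat F) = midMat s00 s01 s10 s11) (x : Sp) (hx : (x : Mat F) = g) :
    ((m⁻¹ * x * m : Sp) : Mat F) (.inl 0) (.inl 0) = g (.inl 0) (.inl 0) ∧
    schur00 ((m⁻¹ * x * m : Sp) : Mat F) =
      s11 * (schur00 g * s00 + schur01 g * s10) - s01 * (schur10 g * s00 + schur11 g * s10) := by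
  have hinv : ((m⁻¹ : Sp) : Mat F) = midMat s11 (-s01) (-s10) s00 := by
    have hd : s11 * s00 - -s10 * -s01 = 1 := by linear_combination hdet
    rw [show m⁻¹ = ⟨_, midMat_mem _ _ _ _ hd⟩ from inv_eq_of_mul_eq_one_right (Subtype.ext (by
      show (m : Mat F) * _ = 1
      rw [hm]
      ext (i | i) (j | j) <;> fin_cases i <;> fin_cases j <;>
        simp [midMat, Matrix.mul_apply, Fintype.sum_sum_type, Fin.sum_univ_two] <;>
        first | ring1 | linear_combination hdet))]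
  have hmul : ((m⁻¹ * x * m : Sp) : Mat F) =
      midMat s11 (-s01) (-s10) s00 * g * midMat s00 s01 s10 s11 := by
    rw [← hinv, ← hm, ← hx]; rfl
  rw [hmul]
  constructor
  · simp [midMat, Matrix.mul_apply, Fintype.sum_sum_type, Fin.sum_univ_two]
  · simp [midMat, schur00, schur01, schur10, schur11, Matrix.mul_apply, Fintype.sum_sum_type,
      Fin.sum_univ_two]
    ring

/-- Every non-central element has a conjugate which is lower times upper unitriangular. -/
theorem exists_conj_lower_mul_upper (g : Sp) (hg : g ∉ Subgroup.center Sp) :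
    ∃ P L U : Sp, IsUpper (L : Mat F)ᵀ ∧ IsUpper (U : Mat F) ∧ P⁻¹ * g * P = L * U := by
  obtain ⟨P, hP1, hP2⟩ := exists_corner g hg
  obtain ⟨x, hx⟩ : ∃ x : Sp, x = P⁻¹ * g * P := ⟨_, rfl⟩
  rw [← hx] at hP1 hP2
  obtain ⟨M, hM⟩ : ∃ M : Mat F, (x : Mat F) = M := ⟨_, rfl⟩
  rw [hM] at hP1 hP2
  by_cases h2 : schur00 M = 1
  · obtain ⟨L, U, hL, hU, he⟩ := exists_lower_mul_upper x (by rw [hM, hP1]) (by rw [hM, h2])
    exact ⟨P, L, U, hL, hU, hx ▸ he⟩
  have hdet : schur00 M * schur11 M - schur01 M * schur10 M = 1 := by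
    have q1 := ω_mulVec x (Pi.single (.inl 1) 1) (Pi.single (.inr 1) 1)
    have q2 := ω_mulVec x (Pi.single (.inl 0) 1) (Pi.single (.inr 1) 1)
    have q3 := ω_mulVec x (Pi.single (.inl 0) 1) (Pi.single (.inl 1) 1)
    simp [ω, Pi.single_apply, hM, hP1] at q1 q2 q3
    simp only [schur00, schur01, schur10, schur11]
    linear_combination q1 - M (.inl 0) (.inl 1) * q2 + M (.inl 0) (.inr 1) * q3
  obtain ⟨s0, s1, hd⟩ : ∃ s0 s1 : F,
      s0 * (schur10 M * s0 + schur11 M * s1) - s1 * (schur00 M * s0 + schur01 M * s1) ≠ 0 := by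
    by_contra hc
    push Not at hc
    have a := hc 1 0
    have b := hc 0 1
    have c := hc 1 1
    have e10 : schur10 M = 0 := by linear_combination a
    have e01 : schur01 M = 0 := by linear_combination -b
    have e11 : schur11 M = schur00 M := by linear_combination c - a - b
    rw [e10, e01, e11] at hdet
    have hsq : (schur00 M - 1) * (schur00 M + 1) = 0 := by linear_combination hdet
    rcases mul_eq_zero.1 hsq with h | h
    · exact h2 (sub_eq_zero.1 h)
    · have hm : schur00 M = -1 := by linear_combination h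
      exact hP2 ⟨hm, e01, e10, e11.trans hm⟩
  obtain ⟨d, hd'⟩ : ∃ d, d = s0 * (schur10 M * s0 + schur11 M * s1)
      - s1 * (schur00 M * s0 + schur01 M * s1) := ⟨_, rfl⟩
  rw [← hd'] at hd
  obtain ⟨t0, ht0⟩ : ∃ t, t = d⁻¹ * (schur00 M * s0 + schur01 M * s1 - s0) := ⟨_, rfl⟩
  obtain ⟨t1, ht1⟩ : ∃ t, t = d⁻¹ * (schur10 M * s0 + schur11 M * s1 - s1) := ⟨_, rfl⟩
  have hst : s0 * t1 - s1 * t0 = 1 := by
    rw [ht0, ht1]
    have := inv_mul_cancel₀ hd
    linear_combination this - d⁻¹ * hd'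
  obtain ⟨m, hm⟩ : ∃ m : Sp, (m : Mat F) = midMat s0 t0 s1 t1 := ⟨⟨_, midMat_mem _ _ _ _ hst⟩, rfl⟩
  obtain ⟨k1, k2⟩ := schur00_mid M s0 t0 s1 t1 hst m hm x hM
  have hone : t1 * (schur00 M * s0 + schur01 M * s1) - t0 * (schur10 M * s0 + schur11 M * s1) = 1 := by
    rw [ht0, ht1]
    have := inv_mul_cancel₀ hd
    linear_combination this - d⁻¹ * hd'
  obtain ⟨L, U, hL, hU, he⟩ := exists_lower_mul_upper (m⁻¹ * x * m) (k1.trans hP1) (k2.trans hone)
  refine ⟨P * m, L, U, hL, hU, ?_⟩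
  rw [← he, hx]
  group

/-- In a finite group, multiplying by a subgroup without fixed points gives conjugates. -/
theorem isConj_mul_of_fixedPointFree {G : Type*} [Group G] [Finite G] (x : G) (S : Set G)
    (hone : (1 : G) ∈ S) (hmul : ∀ a ∈ S, ∀ b ∈ S, a * b ∈ S)
    (hconj : ∀ a ∈ S, x * a * x⁻¹ ∈ S) (hfix : ∀ a ∈ S, x * a = a * x → a = 1) :
    ∀ s ∈ S, ∃ w : G, s * x = w * x * w⁻¹ := by
  have hinv : ∀ a ∈ S, a⁻¹ ∈ S := by
    intro a ha
    obtain ⟨n, hn, hpow⟩ := (isOfFinOrder_of_finite a).exists_pow_eq_one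
    obtain ⟨k, rfl⟩ : ∃ k, n = k + 1 := ⟨n - 1, by omega⟩
    rw [pow_succ] at hpow
    rw [← eq_inv_of_mul_eq_one_left hpow]
    clear hpow hn
    induction k with
    | zero => simpa using hone
    | succ k ih => rw [pow_succ]; exact hmul _ ih _ ha
  let f : S → S := fun w => ⟨(w : G) * (x * (w : G)⁻¹ * x⁻¹),
    hmul _ w.2 _ (hconj _ (hinv _ w.2))⟩
  have hf : Function.Injective f := by
    intro w w' h
    have h' : (w : G) * x * (w : G)⁻¹ = (w' : G) * x * (w' : G)⁻¹ := by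
      have := congrArg (fun s : S => (s : G) * x) h
      simpa [f, mul_assoc] using this
    have hc : x * ((w : G)⁻¹ * w') = ((w : G)⁻¹ * w') * x := by
      have h3 := congrArg (fun t => (w : G)⁻¹ * t * w') h'
      simpa [mul_assoc] using h3
    have := hfix _ (hmul _ (hinv _ w.2) _ w'.2) hc
    exact Subtype.ext (inv_mul_eq_one.1 this)
  intro s hs
  obtain ⟨w, hw⟩ := Finite.injective_iff_surjective.1 hf ⟨s, hs⟩
  refine ⟨w, ?_⟩
  rw [← show (w : G) * (x * (w : G)⁻¹ * x⁻¹) = s from congrArg Subtype.val hw]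
  group

/-- The square of a regular class of the split torus covers the non-central elements. -/
theorem exists_conj_mul_conj_of_regular [Fintype F] (x : Sp) (d : Idx → F)
    (hx : (x : Mat F) = Matrix.diagonal d) (hd : Function.Injective d)
    (hprod : ∀ i, d i.swap * d i = 1) (g : Sp) (hg : g ∉ Subgroup.center Sp) :
    ∃ u v : Sp, g = (u * x * u⁻¹) * (v * x * v⁻¹) := by
  classical
  have hne : ∀ i, d i ≠ 0 := fun i h => by simpa [h] using hprod i
  have diag_fix : ∀ (y : Sp) (e : Idx → F), (y : Mat F) = Matrix.diagonal e → Function.Injective e →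
      ∀ a : Sp, y * a = a * y → ∀ i j, i ≠ j → (a : Mat F) i j = 0 := by
    intro y e hy he a h i j hij
    have := congrFun (congrFun (congrArg (fun t : Sp => (t : Mat F)) h) i) j
    simp only [Submonoid.coe_mul] at this
    rw [hy, Matrix.diagonal_mul, Matrix.mul_diagonal] at this
    have h0 : (e i - e j) * (a : Mat F) i j = 0 := by linear_combination this
    exact (mul_eq_zero.1 h0).resolve_left fun h => hij (he (sub_eq_zero.1 h))
  have hxinv : ((x⁻¹ : Sp) : Mat F) = Matrix.diagonal fun i => d i.swap := by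
    rw [show x⁻¹ = ⟨Matrix.diagonal (fun i => d i.swap), ?_⟩ from inv_eq_of_mul_eq_one_right
      (Subtype.ext ?_)]
    · refine mem_of_cols _ ?_ ?_ ?_ ?_ ?_ ?_ <;> simp [ω, hprod (.inl 0), hprod (.inl 1), mul_comm]
      · simpa [mul_comm] using hprod (.inl 0)
      · simpa [mul_comm] using hprod (.inl 1)
    · show (x : Mat F) * _ = 1
      rw [hx, Matrix.diagonal_mul_diagonal, ← Matrix.diagonal_one]
      exact congrArg _ (funext fun i => by rw [mul_comm]; exact hprod i)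
  have up : ∀ (y : Sp) (e : Idx → F), (y : Mat F) = Matrix.diagonal e →
      ((y⁻¹ : Sp) : Mat F) = Matrix.diagonal (fun i => e i.swap) → (∀ i, e i.swap * e i = 1) →
      Function.Injective e → ∀ s : Sp, IsUpper (s : Mat F) → ∃ w : Sp, s * y = w * y * w⁻¹ := by
    intro y e hy hyi hee he s hs
    refine isConj_mul_of_fixedPointFree y {a : Sp | IsUpper (a : Mat F)} (by simpa using isUpper_one)
      (fun a ha b hb => isUpper_mul ha hb) (fun a ha => ?_) (fun a ha h => ?_) s hs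
    · obtain ⟨a1, a2, a3, a4, a5, a6, a7, a8, a9, a10⟩ := ha
      have e1 : ∀ i j, ((y * a * y⁻¹ : Sp) : Mat F) i j = e i * (a : Mat F) i j * e j.swap := by
        intro i j
        show ((y : Mat F) * (a : Mat F) * ((y⁻¹ : Sp) : Mat F)) i j = _
        rw [hy, hyi, Matrix.mul_diagonal, Matrix.diagonal_mul]
      refine ⟨?_, ?_, ?_, ?_, ?_, ?_, ?_, ?_, ?_, ?_⟩ <;> rw [e1] <;>
        simp [*] <;> first | (simpa [mul_comm] using hee (.inl 0)) | (simpa [mul_comm] using hee (.inr 0)) | (simpa [mul_comm] using hee (.inl 1)) | (simpa [mul_comm] using hee (.inr 1))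
    · obtain ⟨a1, a2, a3, a4, -⟩ := ha
      apply Subtype.ext
      ext i j
      by_cases hij : i = j
      · subst hij
        rcases i with i | i <;> fin_cases i <;> simp [a1, a2, a3, a4]
      · simp [diag_fix y e hy he a h i j hij, hij]
  have low : ∀ s : Sp, IsUpper (s : Mat F)ᵀ → ∃ w : Sp, s * x = w * x * w⁻¹ := by
    intro s hs
    refine isConj_mul_of_fixedPointFree x {a : Sp | IsUpper (a : Mat F)ᵀ}
      (by simpa using isUpper_one) (fun a ha b hb => isUpper_transpose_mul ha hb)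
      (fun a ha => ?_) (fun a ha h => ?_) s hs
    · obtain ⟨a1, a2, a3, a4, a5, a6, a7, a8, a9, a10⟩ := ha
      simp only [Matrix.transpose_apply] at a1 a2 a3 a4 a5 a6 a7 a8 a9 a10
      have e1 : ∀ i j, ((x * a * x⁻¹ : Sp) : Mat F)ᵀ i j = d j * (a : Mat F) j i * d i.swap := by
        intro i j
        show ((x : Mat F) * (a : Mat F) * ((x⁻¹ : Sp) : Mat F)) j i = _
        rw [hx, hxinv, Matrix.mul_diagonal, Matrix.diagonal_mul]
      refine ⟨?_, ?_, ?_, ?_, ?_, ?_, ?_, ?_, ?_, ?_⟩ <;> rw [e1] <;>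
        simp [*] <;> first | (simpa [mul_comm] using hprod (.inl 0)) | (simpa [mul_comm] using hprod (.inr 0)) | (simpa [mul_comm] using hprod (.inl 1)) | (simpa [mul_comm] using hprod (.inr 1))
    · obtain ⟨a1, a2, a3, a4, -⟩ := ha
      simp only [Matrix.transpose_apply] at a1 a2 a3 a4
      apply Subtype.ext
      ext i j
      by_cases hij : i = j
      · subst hij
        rcases i with i | i <;> fin_cases i <;> simp [a1, a2, a3, a4]
      · simp [diag_fix x d hx hd a h i j hij, hij]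
  obtain ⟨P, L, U, hL, hU, he⟩ := exists_conj_lower_mul_upper g hg
  obtain ⟨w1, hw1⟩ := low L hL
  obtain ⟨w2, hw2⟩ := up x⁻¹ (fun i => d i.swap) hxinv (by simpa using hx)
    (fun i => by simpa [mul_comm] using hprod i) (fun i j h => Sum.swap_leftInverse.injective (hd h))
    U hU
  obtain ⟨j, hj⟩ : ∃ j : Sp, (j : Mat F) = Matrix.J (Fin 2) F := ⟨⟨_, SymplecticGroup.J_mem _ _⟩, rfl⟩
  have hflip : j * x = x⁻¹ * j := by
    apply Subtype.ext
    show (j : Mat F) * (x : Mat F) = ((x⁻¹ : Sp) : Mat F) * (j : Mat F)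
    rw [hx, hxinv, hj]
    ext (i | i) (k | k) <;> simp [Matrix.mul_diagonal, Matrix.diagonal_mul, Matrix.J,
      Matrix.one_apply] <;> split_ifs with h <;> simp [h]
  have hxi : x⁻¹ = j * x * j⁻¹ := by rw [hflip]; group
  refine ⟨P * w1, P * x⁻¹ * w2 * j, ?_⟩
  have hg' : g = P * (L * U) * P⁻¹ := by rw [← he]; group
  rw [hg']
  have e1 : L = w1 * x * w1⁻¹ * x⁻¹ := by rw [← hw1]; group
  have e2 : U = w2 * (j * x * j⁻¹) * w2⁻¹ * x := by
    rw [← hxi, ← hw2]; group
  rw [e1, e2]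
  group

end CfsgLib.SpFourCover
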