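import Cfsg.Agent.SpFourCover.Gauss

/-!
Normal forms of non-central elements of `Sp₄` and the certificate checker for small fields.
-/

set_option autoImplicit false

namespace CfsgLib.SpFourCover

open Matrix

/-- A four by four matrix by its entries (order `e₁, e₂, f₁, f₂`). -/
structure M4 (F : Type*) where
  (m00 m01 m02 m03 m10 m11 m12 m13 m20 m21 m22 m23 m30 m31 m32 m33 : F)
deriving DecidableEq

namespace M4

variable {F : Type*} [Field F]

/-- Product. -/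
def mul (A B : M4 F) : M4 F :=
  ⟨A.m00 * B.m00 + A.m01 * B.m10 + A.m02 * B.m20 + A.m03 * B.m30,
   A.m00 * B.m01 + A.m01 * B.m11 + A.m02 * B.m21 + A.m03 * B.m31,
   A.m00 * B.m02 + A.m01 * B.m12 + A.m02 * B.m22 + A.m03 * B.m32,
   A.m00 * B.m03 + A.m01 * B.m13 + A.m02 * B.m23 + A.m03 * B.m33,
   A.m10 * B.m00 + A.m11 * B.m10 + A.m12 * B.m20 + A.m13 * B.m30,
   A.m10 * B.m01 + A.m11 * B.m11 + A.m12 * B.m21 + A.m13 * B.m31,
   A.m10 * B.m02 + A.m11 * B.m12 + A.m12 * B.m22 + A.m13 * B.m32,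
   A.m10 * B.m03 + A.m11 * B.m13 + A.m12 * B.m23 + A.m13 * B.m33,
   A.m20 * B.m00 + A.m21 * B.m10 + A.m22 * B.m20 + A.m23 * B.m30,
   A.m20 * B.m01 + A.m21 * B.m11 + A.m22 * B.m21 + A.m23 * B.m31,
   A.m20 * B.m02 + A.m21 * B.m12 + A.m22 * B.m22 + A.m23 * B.m32,
   A.m20 * B.m03 + A.m21 * B.m13 + A.m22 * B.m23 + A.m23 * B.m33,
   A.m30 * B.m00 + A.m31 * B.m10 + A.m32 * B.m20 + A.m33 * B.m30,
   A.m30 * B.m01 + A.m31 * B.m11 + A.m32 * B.m21 + A.m33 * B.m31,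
   A.m30 * B.m02 + A.m31 * B.m12 + A.m32 * B.m22 + A.m33 * B.m32,
   A.m30 * B.m03 + A.m31 * B.m13 + A.m32 * B.m23 + A.m33 * B.m33⟩

/-- Scalar multiple. -/
def smul (s : F) (A : M4 F) : M4 F :=
  ⟨s * A.m00, s * A.m01, s * A.m02, s * A.m03, s * A.m10, s * A.m11, s * A.m12, s * A.m13,
   s * A.m20, s * A.m21, s * A.m22, s * A.m23, s * A.m30, s * A.m31, s * A.m32, s * A.m33⟩

/-- The identity. -/
def one : M4 F := ⟨1, 0, 0, 0, 0, 1, 0, 0, 0, 0, 1, 0, 0, 0, 0, 1⟩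

/-- Powers. -/
def pow (A : M4 F) : ℕ → M4 F
  | 0 => one
  | n + 1 => mul (pow A n) A

/-- The six symplectic equations on the columns. -/
def IsSymp (A : M4 F) : Prop :=
  A.m00 * A.m22 - A.m20 * A.m02 + (A.m10 * A.m32 - A.m30 * A.m12) = 1 ∧
  A.m01 * A.m23 - A.m21 * A.m03 + (A.m11 * A.m33 - A.m31 * A.m13) = 1 ∧
  A.m00 * A.m21 - A.m20 * A.m01 + (A.m10 * A.m31 - A.m30 * A.m11) = 0 ∧
  A.m00 * A.m23 - A.m20 * A.m03 + (A.m10 * A.m33 - A.m30 * A.m13) = 0 ∧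
  A.m02 * A.m21 - A.m22 * A.m01 + (A.m12 * A.m31 - A.m32 * A.m11) = 0 ∧
  A.m02 * A.m23 - A.m22 * A.m03 + (A.m12 * A.m33 - A.m32 * A.m13) = 0

instance [DecidableEq F] (A : M4 F) : Decidable A.IsSymp := by unfold IsSymp; infer_instance

/-- The matrix. -/
def toMat (A : M4 F) : Mat F :=
  Matrix.fromBlocks !![A.m00, A.m01; A.m10, A.m11] !![A.m02, A.m03; A.m12, A.m13]
    !![A.m20, A.m21; A.m30, A.m31] !![A.m22, A.m23; A.m32, A.m33]

theorem toMat_mul (A B : M4 F) : (mul A B).toMat = A.toMat * B.toMat := by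
  ext (i | i) (j | j) <;> fin_cases i <;> fin_cases j <;>
    simp [toMat, mul, Matrix.mul_apply, Fintype.sum_sum_type, Fin.sum_univ_two] <;> ring

theorem toMat_smul (s : F) (A : M4 F) : (smul s A).toMat = s • A.toMat := by
  ext (i | i) (j | j) <;> fin_cases i <;> fin_cases j <;> simp [toMat, smul]

theorem toMat_one : (one : M4 F).toMat = 1 := by
  ext (i | i) (j | j) <;> fin_cases i <;> fin_cases j <;> simp [toMat, one]

theorem toMat_pow (A : M4 F) (n : ℕ) : (pow A n).toMat = A.toMat ^ n := by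
  induction n with
  | zero => simp [pow, toMat_one]
  | succ n ih => rw [pow, toMat_mul, ih, pow_succ]

theorem toMat_mem {A : M4 F} (h : A.IsSymp) : A.toMat ∈ Matrix.symplecticGroup (Fin 2) F := by
  obtain ⟨h1, h2, h3, h4, h5, h6⟩ := h
  refine mem_of_cols _ ?_ ?_ ?_ ?_ ?_ ?_ <;> simp [ω, toMat] <;> assumption

end M4

/-- A certificate: index of the left factor, sign, and the conjugator of the right one. -/
structure Cert (F : Type*) where
  (idx : ℕ) (sgn : Bool) (v : M4 F)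

variable {F : Type*} [Field F] [DecidableEq F]

/-- Checking the list of left factors `(u, y)` with `y u = u x`. -/
def checkY (x : M4 F) (Y : List (M4 F × M4 F)) : Bool :=
  Y.all fun p => decide (p.1.IsSymp ∧ M4.mul p.2 p.1 = M4.mul p.1 x)

/-- Checking one form. -/
def checkOne (x : M4 F) (Y : List (M4 F × M4 F)) (M : M4 F) (c : Cert F) : Bool :=
  match Y[c.idx]? with
  | none => false
  | some p => decide (c.v.IsSymp ∧
      M4.mul M c.v = M4.smul (if c.sgn then -1 else 1) (M4.mul p.2 (M4.mul c.v x)))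

/-- Checking many forms. -/
def checkAll (x : M4 F) (Y : List (M4 F × M4 F)) : List (M4 F) → List (Cert F) → Bool
  | [], _ => true
  | _ :: _, [] => false
  | M :: Ms, c :: cs => checkOne x Y M c && checkAll x Y Ms cs

/-- The normal form of the generic kind. -/
def formM (c ci h00 h01 h10 h11 a b z : F) : M4 F :=
  M4.mul ⟨0, 0, -ci, 0, 0, 1, 0, 0, c, 0, 0, 0, 0, 0, 0, 1⟩
    (M4.mul ⟨1, a, z, b, 0, 1, b, 0, 0, 0, 1, 0, 0, 0, -a, 1⟩
      ⟨1, 0, 0, 0, 0, h00, 0, h01, 0, 0, 1, 0, 0, h10, 0, h11⟩)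

/-- The normal form of the self-adjoint kind. -/
def formS : M4 F := ⟨0, 1, 0, 0, 1, 0, 0, 0, 0, 0, 0, 1, 0, 0, 1, 0⟩

/-- All forms. -/
def forms (es : List F) (cs : List (F × F)) (hs : List (F × F × F × F)) : List (M4 F) :=
  formS :: cs.flatMap fun c => hs.flatMap fun h => es.flatMap fun a => es.flatMap fun b =>
    es.map fun z => formM c.1 c.2 h.1 h.2.1 h.2.2.1 h.2.2.2 a b z

/-- `SL₂` representatives cover all classes. -/
def CoversSL (hs : List (F × F × F × F)) : Prop :=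
  ∀ a b c d : F, a * d - b * c = 1 → ∃ h ∈ hs, ∃ p r s t : F, p * t - r * s = 1 ∧
    a * p + b * s = p * h.1 + r * h.2.2.1 ∧ a * r + b * t = p * h.2.1 + r * h.2.2.2 ∧
    c * p + d * s = s * h.1 + t * h.2.2.1 ∧ c * r + d * t = s * h.2.1 + t * h.2.2.2

local notation "Sp" => Matrix.symplecticGroup (Fin 2) F

theorem checkAll_iff {x : M4 F} {Y : List (M4 F × M4 F)} :
    ∀ {Ms : List (M4 F)} {cs : List (Cert F)}, checkAll x Y Ms cs = true →
      ∀ M ∈ Ms, ∃ c, checkOne x Y M c = true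
  | [], _, _, M, hM => absurd hM (List.not_mem_nil)
  | _ :: _, [], h, _, _ => by simp [checkAll] at h
  | M' :: Ms, c :: cs, h, M, hM => by
      simp only [checkAll, Bool.and_eq_true] at h
      rcases List.mem_cons.1 hM with rfl | hM
      · exact ⟨c, h.1⟩
      · exact checkAll_iff h.2 M hM

omit [DecidableEq F] in
set_option maxHeartbeats 1000000 in
theorem exists_normal_form (g : Sp) (hg : g ∉ Subgroup.center Sp) (cs : List (F × F))
    (hcs : ∀ c : F, c ≠ 0 → ∃ d ∈ cs, ∃ l : F, l ≠ 0 ∧ d.1 = l * l * c ∧ d.1 * d.2 = 1)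
    (hs : List (F × F × F × F)) (hhs : CoversSL hs) :
    ∃ P : Sp, ((P⁻¹ * g * P : Sp) : Mat F) = formS.toMat ∨
      ∃ d ∈ cs, ∃ h ∈ hs, ∃ a b z : F,
        ((P⁻¹ * g * P : Sp) : Mat F) =
          (formM d.1 d.2 h.1 h.2.1 h.2.2.1 h.2.2.2 a b z).toMat := by
  obtain ⟨G, hG⟩ : ∃ G : Mat F, (g : Mat F) = G := ⟨_, rfl⟩
  have hGω : ∀ u v, ω (G *ᵥ u) (G *ᵥ v) = ω u v := by rw [← hG]; exact ω_mulVec g
  have toCols : ∀ (P : Sp) (N : Mat F), (∀ j, G *ᵥ ((P : Mat F) *ᵥ Pi.single j 1) =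
      (P : Mat F) *ᵥ (N *ᵥ Pi.single j 1)) → ((P⁻¹ * g * P : Sp) : Mat F) = N := by
    intro P N h
    have e : G * (P : Mat F) = (P : Mat F) * N := by
      ext i j
      have := congrFun (h j) i
      rw [mulVec_mulVec, mulVec_mulVec] at this
      simpa using this
    show ((P⁻¹ : Sp) : Mat F) * (g : Mat F) * (P : Mat F) = N
    rw [hG, Matrix.mul_assoc, e, ← Matrix.mul_assoc,
      show ((P⁻¹ : Sp) : Mat F) * (P : Mat F) = ((P⁻¹ * P : Sp) : Mat F) from rfl, inv_mul_cancel]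
    simp
  by_cases hgen : ∀ v, ω v (G *ᵥ v) = 0
  · have hadj : ∀ u v, ω (G *ᵥ u) v = ω u (G *ᵥ v) := by
      intro u v
      have h := hgen (u + v)
      simp only [mulVec_add, ω_add_left, ω_add_right, hgen u, hgen v] at h
      rw [ω_swap]
      linear_combination -h
    have hinv : ∀ u, G *ᵥ (G *ᵥ u) = u := by
      intro u
      refine sub_eq_zero.1 (eq_zero_of_ω fun z => ?_)
      rw [sub_eq_add_neg, ω_add_left, ← neg_one_smul F u, ω_smul_left, hadj, hGω]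
      ring
    obtain ⟨v, hv⟩ : ∃ v : Idx → F, ∀ c : F, G *ᵥ v ≠ c • v := by
      by_contra hc
      push Not at hc
      exact hg (mem_center_of_scalar g (by rw [hG]; exact hc))
    have hv0 : v ≠ 0 := fun h => hv 0 (by rw [h, mulVec_zero, smul_zero])
    obtain ⟨f, hgf, hvf⟩ : ∃ f, ω (G *ᵥ v) f = 0 ∧ ω v f = 1 := by
      obtain ⟨f, h1, h2⟩ := exists_dual (a := v) (b := G *ᵥ v)
        (fun h => hv0 (by rw [← hinv v, h, mulVec_zero]))
        (fun c hc => by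
          rcases eq_or_ne c 0 with rfl | hc0
          · exact hv0 (by rw [hc, zero_smul])
          · refine hv c⁻¹ ?_
            conv_rhs => rw [hc, smul_smul, inv_mul_cancel₀ hc0, one_smul])
      exact ⟨f, h2, h1⟩
    obtain ⟨P, hP⟩ : ∃ P : Sp, ∀ i j, (P : Mat F) i j =
        (Sum.elim ![v, G *ᵥ v] ![f, G *ᵥ f] j) i := by
      refine ⟨⟨Matrix.of fun i j => (Sum.elim ![v, G *ᵥ v] ![f, G *ᵥ f] j) i,
        mem_of_cols _ ?_ ?_ ?_ ?_ ?_ ?_⟩, fun i j => rfl⟩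
      · simpa [ω, Matrix.col_apply] using hvf
      · simpa [ω, Matrix.col_apply] using (hGω v f).trans hvf
      · simpa [ω, Matrix.col_apply] using hgen v
      · simpa [ω, Matrix.col_apply] using (hadj v f).symm.trans hgf
      · simpa [ω, Matrix.col_apply] using (show ω f (G *ᵥ v) = 0 by rw [ω_swap, hgf, neg_zero])
      · simpa [ω, Matrix.col_apply] using hgen f
    refine ⟨P, Or.inl (toCols P _ fun j => ?_)⟩
    have col : ∀ k, (P : Mat F) *ᵥ Pi.single k 1 = Sum.elim ![v, G *ᵥ v] ![f, G *ᵥ f] k := fun k => by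
      funext i; rw [mulVec_single_entry, hP]
    have e : formS.toMat *ᵥ Pi.single j (1 : F) =
        Pi.single (Sum.map (fun i : Fin 2 => i + 1) (fun i : Fin 2 => i + 1) j) 1 := by
      funext i
      rw [mulVec_single_entry]
      rcases i with i | i <;> rcases j with j | j <;> fin_cases i <;> fin_cases j <;>
        simp [formS, M4.toMat]
    rw [e, col, col]
    rcases j with j | j <;> fin_cases j <;> simp [hinv]
  · push Not at hgen
    obtain ⟨v₀, hv₀⟩ := hgen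
    obtain ⟨d, hd, l, hl, hdl, hdd⟩ := hcs _ hv₀
    obtain ⟨v, hvdef⟩ : ∃ v, v = l • v₀ := ⟨_, rfl⟩
    have hd0 : d.1 ≠ 0 := fun h => by simp [h] at hdd
    have hvg : ω v (G *ᵥ v) = d.1 := by
      rw [hvdef, mulVec_smul, ω_smul_left, ω_smul_right, hdl]; ring
    have hvf : ω v (d.2 • G *ᵥ v) = 1 := by rw [ω_smul_right, hvg, mul_comm, hdd]
    obtain ⟨Q, hQe, hQf⟩ := exists_frame hvf
    obtain ⟨K, hK⟩ : ∃ K : Mat F, K = ((Q⁻¹ * g * Q : Sp) : Mat F) := ⟨_, rfl⟩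
    have hKω : ∀ u v, ω (K *ᵥ u) (K *ᵥ v) = ω u v := by rw [hK]; exact ω_mulVec _
    have hK0 : K *ᵥ Pi.single (.inl 0) 1 = d.1 • Pi.single (.inr 0) 1 := by
      have e : ((Q⁻¹ : Sp) : Mat F) *ᵥ (G *ᵥ v) = d.1 • Pi.single (.inr 0) 1 := by
        rw [show G *ᵥ v = d.1 • (d.2 • G *ᵥ v) by rw [smul_smul, hdd, one_smul], ← hQf,
          mulVec_smul, mulVec_mulVec,
          show ((Q⁻¹ : Sp) : Mat F) * (Q : Mat F) = ((Q⁻¹ * Q : Sp) : Mat F) from rfl,
          inv_mul_cancel]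
        simp only [OneMemClass.coe_one, one_mulVec]
      rw [← e, ← hQe, mulVec_mulVec, mulVec_mulVec, hK, ← hG]
      rfl
    -- entries of the first column
    have k00 := congrFun hK0 (.inl 0)
    have k10 := congrFun hK0 (.inl 1)
    have k20 := congrFun hK0 (.inr 0)
    have k30 := congrFun hK0 (.inr 1)
    simp at k00 k10 k20 k30
    have q01 := hKω (Pi.single (.inl 0) 1) (Pi.single (.inl 1) 1)
    have q02 := hKω (Pi.single (.inl 0) 1) (Pi.single (.inr 0) 1)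
    have q03 := hKω (Pi.single (.inl 0) 1) (Pi.single (.inr 1) 1)
    have q12 := hKω (Pi.single (.inl 1) 1) (Pi.single (.inr 0) 1)
    have q13 := hKω (Pi.single (.inl 1) 1) (Pi.single (.inr 1) 1)
    have q23 := hKω (Pi.single (.inr 0) 1) (Pi.single (.inr 1) 1)
    simp [ω, Pi.single_apply, k00, k10, k20, k30, hd0] at q01 q02 q03 q12 q13 q23
    -- the middle block
    obtain ⟨A, hA⟩ : ∃ A, A = K (.inl 1) (.inl 1) := ⟨_, rfl⟩
    obtain ⟨B, hB⟩ : ∃ B, B = K (.inl 1) (.inr 1) := ⟨_, rfl⟩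
    obtain ⟨C, hC⟩ : ∃ C, C = K (.inr 1) (.inl 1) := ⟨_, rfl⟩
    obtain ⟨D, hD⟩ : ∃ D, D = K (.inr 1) (.inr 1) := ⟨_, rfl⟩
    obtain ⟨h, hh, p, r, s, t, hdet, e1, e2, e3, e4⟩ := hhs A B C D (by
      rw [hA, hB, hC, hD]
      first | linear_combination q13 | linear_combination -q13
            | linear_combination q13 - K (.inr 0) (.inr 1) * q01 + K (.inr 0) (.inl 1) * q03)
    obtain ⟨m, hm⟩ : ∃ m : Sp, (m : Mat F) = midMat p r s t :=
      ⟨⟨_, midMat_mem p r s t (by linear_combination hdet)⟩, rfl⟩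
    obtain ⟨N, hN⟩ : ∃ N : Mat F, N = ((m⁻¹ * (Q⁻¹ * g * Q) * m : Sp) : Mat F) := ⟨_, rfl⟩
    have hNω : ∀ u v, ω (N *ᵥ u) (N *ᵥ v) = ω u v := by rw [hN]; exact ω_mulVec _
    have hmN : midMat p r s t * N = K * midMat p r s t := by
      rw [hN, hK, ← hm]
      show (m : Mat F) * _ = _
      rw [show (m : Mat F) * ((m⁻¹ * (Q⁻¹ * g * Q) * m : Sp) : Mat F) =
        ((m * (m⁻¹ * (Q⁻¹ * g * Q) * m) : Sp) : Mat F) from rfl]
      rw [show m * (m⁻¹ * (Q⁻¹ * g * Q) * m) = (Q⁻¹ * g * Q) * m by group]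
      rfl
    have E := fun i j => congrFun (congrFun hmN i) j
    have f00 := E (.inl 0) (.inl 0)
    have f10 := E (.inl 1) (.inl 0)
    have f20 := E (.inr 0) (.inl 0)
    have f30 := E (.inr 1) (.inl 0)
    have f11 := E (.inl 1) (.inl 1)
    have f31 := E (.inr 1) (.inl 1)
    have f13 := E (.inl 1) (.inr 1)
    have f33 := E (.inr 1) (.inr 1)
    simp [midMat, Matrix.mul_apply, Fintype.sum_sum_type, Fin.sum_univ_two, k00, k10, k20, k30, ← hA,
      ← hB, ← hC, ← hD] at f00 f10 f20 f30 f11 f31 f13 f33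
    have n10 : N (.inl 1) (.inl 0) = 0 := by linear_combination t * f10 - r * f30 - N (.inl 1) (.inl 0) * hdet
    have n30 : N (.inr 1) (.inl 0) = 0 := by linear_combination p * f30 - s * f10 - N (.inr 1) (.inl 0) * hdet
    have n11 : N (.inl 1) (.inl 1) = h.1 := by
      linear_combination t * f11 - r * f31 + t * e1 - r * e3 - (N (.inl 1) (.inl 1) - h.1) * hdet
    have n13 : N (.inl 1) (.inr 1) = h.2.1 := by
      linear_combination t * f13 - r * f33 + t * e2 - r * e4 - (N (.inl 1) (.inr 1) - h.2.1) * hdet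
    have n31 : N (.inr 1) (.inl 1) = h.2.2.1 := by
      linear_combination p * f31 - s * f11 + p * e3 - s * e1 - (N (.inr 1) (.inl 1) - h.2.2.1) * hdet
    have n33 : N (.inr 1) (.inr 1) = h.2.2.2 := by
      linear_combination p * f33 - s * f13 + p * e4 - s * e2 - (N (.inr 1) (.inr 1) - h.2.2.2) * hdet
    have w01 := hNω (Pi.single (.inl 0) 1) (Pi.single (.inl 1) 1)
    have w02 := hNω (Pi.single (.inl 0) 1) (Pi.single (.inr 0) 1)
    have w03 := hNω (Pi.single (.inl 0) 1) (Pi.single (.inr 1) 1)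
    have w12 := hNω (Pi.single (.inl 1) 1) (Pi.single (.inr 0) 1)
    have w13 := hNω (Pi.single (.inl 1) 1) (Pi.single (.inr 1) 1)
    have w23 := hNω (Pi.single (.inr 0) 1) (Pi.single (.inr 1) 1)
    simp [ω, Pi.single_apply, f00, f20, n10, n30, n11, n13, n31, n33, hd0] at w01 w02 w03 w12 w13 w23
    have c1 : d.2 * d.1 = 1 := by rw [mul_comm, hdd]
    have n02 : N (.inl 0) (.inr 0) = -d.2 := by
      linear_combination -d.2 * w02 - N (.inl 0) (.inr 0) * c1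
    have hhdet : h.1 * h.2.2.2 - h.2.2.1 * h.2.1 = 1 := by
      linear_combination w13 - N (.inr 0) (.inr 1) * w01 + N (.inr 0) (.inl 1) * w03
    -- the parameters
    obtain ⟨X, hX⟩ : ∃ X, X = d.2 * N (.inr 0) (.inl 1) := ⟨_, rfl⟩
    obtain ⟨W, hW⟩ : ∃ W, W = d.2 * N (.inr 0) (.inr 1) := ⟨_, rfl⟩
    refine ⟨Q * m, Or.inr ⟨d, hd, h, hh, X * h.2.2.2 - W * h.2.2.1, W * h.1 - X * h.2.1,
      d.2 * N (.inr 0) (.inr 0), ?_⟩⟩
    rw [show (Q * m)⁻¹ * g * (Q * m) = m⁻¹ * (Q⁻¹ * g * Q) * m by group, ← hN]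
    ext (i | i) (j | j) <;> fin_cases i <;> fin_cases j <;>
      simp [M4.toMat, formM, M4.mul, f00, f20, n10, n30, n11, n13, n31, n33, n02, w01, w03] <;>
      first
        | ring1
        | linear_combination -(d.1 * X) * hhdet - d.1 * hX - N (.inr 0) (.inl 1) * c1
        | linear_combination -(d.1 * W) * hhdet - d.1 * hW - N (.inr 0) (.inr 1) * c1
        | linear_combination -N (.inr 0) (.inr 0) * c1
        | linear_combination h.2.1 * (w12 - N (.inr 0) (.inr 0) * w01 + N (.inr 0) (.inl 1) * n02 + hX) + h.1 * (w23 - N (.inr 0) (.inr 1) * n02 + N (.inr 0) (.inr 0) * w03 - hW) - N (.inl 1) (.inr 0) * hhdet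
        | linear_combination h.2.2.2 * (w12 - N (.inr 0) (.inr 0) * w01 + N (.inr 0) (.inl 1) * n02 + hX) + h.2.2.1 * (w23 - N (.inr 0) (.inr 1) * n02 + N (.inr 0) (.inr 0) * w03 - hW) - N (.inr 1) (.inr 0) * hhdet

/-- A conjugacy certificate in `SL₂`: element, representative, conjugator. -/
abbrev SLCert (F : Type*) : Type _ := (F × F × F × F) × (F × F × F × F) × (F × F × F × F)

/-- Checking one conjugacy certificate. -/
def checkSL (hs : List (F × F × F × F)) (k : SLCert F) : Bool :=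
  decide (k.2.1 ∈ hs ∧ k.2.2.1 * k.2.2.2.2.2 - k.2.2.2.1 * k.2.2.2.2.1 = 1 ∧
    k.1.1 * k.2.2.1 + k.1.2.1 * k.2.2.2.2.1 = k.2.2.1 * k.2.1.1 + k.2.2.2.1 * k.2.1.2.2.1 ∧
    k.1.1 * k.2.2.2.1 + k.1.2.1 * k.2.2.2.2.2 = k.2.2.1 * k.2.1.2.1 + k.2.2.2.1 * k.2.1.2.2.2 ∧
    k.1.2.2.1 * k.2.2.1 + k.1.2.2.2 * k.2.2.2.2.1 = k.2.2.2.2.1 * k.2.1.1 + k.2.2.2.2.2 * k.2.1.2.2.1 ∧
    k.1.2.2.1 * k.2.2.2.1 + k.1.2.2.2 * k.2.2.2.2.2 =
      k.2.2.2.2.1 * k.2.1.2.1 + k.2.2.2.2.2 * k.2.1.2.2.2)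

omit [DecidableEq F] in
theorem coversSL_of_check [DecidableEq F] (hs : List (F × F × F × F)) (sl : List (SLCert F))
    (h1 : sl.all (checkSL hs) = true)
    (h2 : ∀ a b c d : F, a * d - b * c = 1 → (a, b, c, d) ∈ sl.map Prod.fst) : CoversSL hs := by
  intro a b c d hdet
  obtain ⟨k, hk, he⟩ := List.mem_map.1 (h2 a b c d hdet)
  have := List.all_eq_true.1 h1 k hk
  simp only [checkSL, decide_eq_true_eq] at this
  obtain ⟨hm, p1, p2, p3, p4, p5⟩ := this
  refine ⟨k.2.1, hm, k.2.2.1, k.2.2.2.1, k.2.2.2.2.1, k.2.2.2.2.2, p1, ?_⟩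
  rw [he] at p2 p3 p4 p5
  exact ⟨p2, p3, p4, p5⟩

omit [DecidableEq F] in
theorem neg_mem_center (z : Sp) (s : F) (hz : (z : Mat F) = s • (1 : Mat F)) :
    z ∈ Subgroup.center Sp :=
  mem_center_of_scalar z fun v => ⟨s, by rw [hz, Matrix.smul_mulVec, Matrix.one_mulVec]⟩

/-- From the certificates to the covering. -/
theorem cover_of_check (x : M4 F) (hx : x.IsSymp) (Y : List (M4 F × M4 F)) (es : List F)
    (hes : ∀ z : F, z ∈ es) (cs : List (F × F))
    (hcs : ∀ c : F, c ≠ 0 → ∃ d ∈ cs, ∃ l : F, l ≠ 0 ∧ d.1 = l * l * c ∧ d.1 * d.2 = 1)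
    (hs : List (F × F × F × F)) (hhs : CoversSL hs) (data : List (Cert F))
    (hY : checkY x Y = true) (hall : checkAll x Y (forms es cs hs) data = true) :
    ∃ X : Sp, (X : Mat F) = x.toMat ∧ ∀ g ∉ Subgroup.center Sp,
      ∃ z ∈ Subgroup.center Sp, ∃ u v : Sp, g = z * ((u * X * u⁻¹) * (v * X * v⁻¹)) := by
  obtain ⟨X, hX⟩ : ∃ X : Sp, (X : Mat F) = x.toMat := ⟨⟨_, M4.toMat_mem hx⟩, rfl⟩
  refine ⟨X, hX, fun g hg => ?_⟩
  obtain ⟨P, hP⟩ := exists_normal_form g hg cs hcs hs hhs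
  obtain ⟨M, hM, hmem⟩ : ∃ M, ((P⁻¹ * g * P : Sp) : Mat F) = M4.toMat M ∧ M ∈ forms es cs hs := by
    rcases hP with hP | ⟨d, hd, h, hh, a, b, z, hP⟩
    · exact ⟨_, hP, List.mem_cons_self⟩
    · refine ⟨_, hP, List.mem_cons_of_mem _ ?_⟩
      simp only [List.mem_flatMap, List.mem_map]
      exact ⟨d, hd, h, hh, a, hes a, b, hes b, z, hes z, rfl⟩
  obtain ⟨c, hc⟩ := checkAll_iff hall M hmem
  unfold checkOne at hc
  split at hc
  · simp at hc
  · next p hp =>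
    simp only [decide_eq_true_eq] at hc
    obtain ⟨hv, heq⟩ := hc
    have hpY : p ∈ Y := by
      obtain ⟨i, hi⟩ := List.getElem?_eq_some_iff.1 hp
      exact hi ▸ List.getElem_mem _
    have := List.all_eq_true.1 hY p hpY
    simp only [decide_eq_true_eq] at this
    obtain ⟨hu, hy⟩ := this
    obtain ⟨u, hu'⟩ : ∃ u : Sp, (u : Mat F) = p.1.toMat := ⟨⟨_, M4.toMat_mem hu⟩, rfl⟩
    obtain ⟨v, hv'⟩ : ∃ v : Sp, (v : Mat F) = c.v.toMat := ⟨⟨_, M4.toMat_mem hv⟩, rfl⟩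
    obtain ⟨s, hs', hs2⟩ : ∃ s : F, s = (if c.sgn then -1 else 1) ∧ s * s = 1 := by
      refine ⟨_, rfl, ?_⟩
      split <;> ring
    obtain ⟨z, hz⟩ : ∃ z : Sp, (z : Mat F) = s • (1 : Mat F) := by
      refine ⟨⟨_, ?_⟩, rfl⟩
      rw [SymplecticGroup.mem_iff]
      simp [smul_smul, hs2]
    have hy' : p.2.toMat = ((u * X * u⁻¹ : Sp) : Mat F) := by
      have e := congrArg M4.toMat hy
      rw [M4.toMat_mul, M4.toMat_mul, ← hu', ← hX] at e
      show p.2.toMat = (u : Mat F) * (X : Mat F) * ((u⁻¹ : Sp) : Mat F)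
      rw [← e, Matrix.mul_assoc,
        show (u : Mat F) * ((u⁻¹ : Sp) : Mat F) = ((u * u⁻¹ : Sp) : Mat F) from rfl, mul_inv_cancel]
      simp
    have key : P⁻¹ * g * P * v = z * (u * X * u⁻¹ * (v * X)) := by
      apply Subtype.ext
      show ((P⁻¹ * g * P : Sp) : Mat F) * (v : Mat F) =
        (z : Mat F) * (((u * X * u⁻¹ : Sp) : Mat F) * ((v : Mat F) * (X : Mat F)))
      rw [hM, hv', ← M4.toMat_mul, heq, M4.toMat_smul, M4.toMat_mul, M4.toMat_mul, hy', hX, hz,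
        ← hs', Matrix.smul_mul, Matrix.one_mul]
    refine ⟨z, neg_mem_center z s hz, P * u, P * v, ?_⟩
    have hc' := Subgroup.mem_center_iff.1 (neg_mem_center z s hz)
    calc g = P * (P⁻¹ * g * P * v) * v⁻¹ * P⁻¹ := by group
      _ = (P * z) * (u * X * u⁻¹ * (v * X)) * v⁻¹ * P⁻¹ := by rw [key]; group
      _ = _ := by rw [hc' P]; group

end CfsgLib.SpFourCover
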